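import Mathlib

/-!
The centralizer of a transvection in the four-dimensional symplectic group: explicit matrices.
-/

set_option autoImplicit false

namespace CfsgLib.Order648

open Matrix

variable {F : Type*} [Field F]

/-- The unipotent radical of the stabilizer of a point, in coordinates. -/
def uMat (x y c : F) : Matrix (Fin 2 ⊕ Fin 2) (Fin 2 ⊕ Fin 2) F :=
  Matrix.fromBlocks !![1, -y; 0, 1] !![c, x; x, 0] 0 !![1, 0; y, 1]

/-- A two-by-two matrix acting on the middle plane. -/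
def bMat (A : Matrix (Fin 2) (Fin 2) F) : Matrix (Fin 2 ⊕ Fin 2) (Fin 2 ⊕ Fin 2) F :=
  Matrix.fromBlocks !![1, 0; 0, A 0 0] !![0, 0; 0, A 0 1] !![0, 0; 0, A 1 0] !![1, 0; 0, A 1 1]

theorem uMat_mem (x y c : F) : uMat x y c ∈ Matrix.symplecticGroup (Fin 2) F := by
  rw [uMat, SymplecticGroup.fromBlocks_mem_iff]
  refine ⟨?_, ?_, ?_⟩ <;>
    (ext i j; fin_cases i <;> fin_cases j <;> simp [Matrix.mul_apply, Fin.sum_univ_two]) <;> ring

theorem bMat_mem {A : Matrix (Fin 2) (Fin 2) F} (h : A.det = 1) : bMat A ∈ Matrix.symplecticGroup (Fin 2) F := by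
  rw [Matrix.det_fin_two] at h
  rw [bMat, SymplecticGroup.fromBlocks_mem_iff]
  refine ⟨?_, ?_, ?_⟩ <;>
    (ext i j; fin_cases i <;> fin_cases j <;> simp [Matrix.mul_apply, Fin.sum_univ_two]) <;>
    first | ring1 | linear_combination h | linear_combination -h

theorem uMat_mul (x y c x' y' c' : F) :
    uMat x y c * uMat x' y' c' = uMat (x + x') (y + y') (c + c' + (x * y' - y * x')) := by
  simp only [uMat, Matrix.fromBlocks_multiply]
  rw [Matrix.fromBlocks_inj]
  refine ⟨?_, ?_, ?_, ?_⟩ <;>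
    (ext i j; fin_cases i <;> fin_cases j <;> simp [Matrix.mul_apply, Fin.sum_univ_two]) <;> ring

theorem bMat_mul (A B : Matrix (Fin 2) (Fin 2) F) : bMat A * bMat B = bMat (A * B) := by
  simp only [bMat, Matrix.fromBlocks_multiply]
  rw [Matrix.fromBlocks_inj]
  refine ⟨?_, ?_, ?_, ?_⟩ <;>
    (ext i j; fin_cases i <;> fin_cases j <;> simp [Matrix.mul_apply, Fin.sum_univ_two])

theorem bMat_mul_uMat {A : Matrix (Fin 2) (Fin 2) F} (h : A.det = 1) (x y c : F) :
    bMat A * uMat x y c = uMat (A 0 0 * x + A 0 1 * y) (A 1 0 * x + A 1 1 * y) c * bMat A := by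
  rw [Matrix.det_fin_two] at h
  simp only [bMat, uMat, Matrix.fromBlocks_multiply]
  rw [Matrix.fromBlocks_inj]
  refine ⟨?_, ?_, ?_, ?_⟩ <;>
    (ext i j; fin_cases i <;> fin_cases j <;> simp [Matrix.mul_apply, Fin.sum_univ_two]) <;>
    first | linear_combination y * h | linear_combination x * h | linear_combination -y * h |
      linear_combination -x * h

theorem uMat_bMat_inj {x y c x' y' c' : F} {A B : Matrix (Fin 2) (Fin 2) F}
    (h : uMat x y c * bMat A = uMat x' y' c' * bMat B) : x = x' ∧ y = y' ∧ c = c' ∧ A = B := by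
  simp only [uMat, bMat, Matrix.fromBlocks_multiply] at h
  rw [Matrix.fromBlocks_inj] at h
  obtain ⟨h1, h2, h3, h4⟩ := h
  have a1 := congrFun (congrFun h1 1) 1
  have b1 := congrFun (congrFun h2 0) 0
  have b2 := congrFun (congrFun h2 1) 0
  have b3 := congrFun (congrFun h2 1) 1
  have c1 := congrFun (congrFun h3 1) 1
  have d1 := congrFun (congrFun h4 1) 0
  have d2 := congrFun (congrFun h4 1) 1
  simp [Matrix.mul_apply, Fin.sum_univ_two] at a1 b1 b2 b3 c1 d1 d2
  refine ⟨b2, d1, b1, ?_⟩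
  ext i j
  fin_cases i <;> fin_cases j
  · simpa [b2, c1] using a1
  · simpa [b2, d2] using b3
  · simpa using c1
  · simpa using d2

/-- The transvection. -/
def tv (F : Type*) [Field F] : Matrix.symplecticGroup (Fin 2) F := ⟨uMat 0 0 1, uMat_mem 0 0 1⟩

theorem bMat_one : bMat (1 : Matrix (Fin 2) (Fin 2) F) = 1 := by
  rw [bMat, ← Matrix.fromBlocks_one, Matrix.fromBlocks_inj]
  refine ⟨?_, ?_, ?_, ?_⟩ <;> (ext i j; fin_cases i <;> fin_cases j <;> simp)

theorem uMat_zero : uMat (0 : F) 0 0 = 1 := by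
  rw [uMat, ← Matrix.fromBlocks_one, Matrix.fromBlocks_inj]
  refine ⟨?_, ?_, ?_, ?_⟩ <;> (ext i j; fin_cases i <;> fin_cases j <;> simp)

theorem uMat_bMat_corner (x y c : F) (A : Matrix (Fin 2) (Fin 2) F) :
    (uMat x y c * bMat A) (Sum.inl 0) (Sum.inl 0) = 1 := by
  simp [uMat, bMat, Matrix.fromBlocks_multiply]

theorem corner_sq {g : Matrix (Fin 2 ⊕ Fin 2) (Fin 2 ⊕ Fin 2) F} (hg : g ∈ Matrix.symplecticGroup (Fin 2) F)
    (hc : g * uMat 0 0 1 = uMat 0 0 1 * g) : g (Sum.inl 0) (Sum.inl 0) * g (Sum.inl 0) (Sum.inl 0) = 1 := by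
  obtain ⟨P, Q, R, S, rfl⟩ : ∃ P Q R S, g = Matrix.fromBlocks P Q R S :=
    ⟨_, _, _, _, (Matrix.fromBlocks_toBlocks g).symm⟩
  simp only [Matrix.fromBlocks_apply₁₁]
  rw [SymplecticGroup.fromBlocks_mem_iff] at hg
  simp only [uMat, Matrix.fromBlocks_multiply] at hc
  rw [Matrix.fromBlocks_inj] at hc
  obtain ⟨hc1, hc2, -, hc4⟩ := hc
  have r00 := congrFun (congrFun hc1 0) 0
  have p10 := congrFun (congrFun hc2 1) 0
  have s00 := congrFun (congrFun hc2 0) 0
  have r10 := congrFun (congrFun hc4 1) 0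
  simp [Matrix.mul_apply, Fin.sum_univ_two, Matrix.vecMul, dotProduct] at r00 p10 s00 r10
  have k := congrFun (congrFun hg.2.2 0) 0
  simp [Matrix.mul_apply, Fin.sum_univ_two, r00, p10, r10] at k
  have h : S 0 0 = P 0 0 := by linear_combination -s00
  rwa [h] at k

theorem decompose_one {g : Matrix (Fin 2 ⊕ Fin 2) (Fin 2 ⊕ Fin 2) F} (hg : g ∈ Matrix.symplecticGroup (Fin 2) F)
    (hc : g * uMat 0 0 1 = uMat 0 0 1 * g) (h00 : g (Sum.inl 0) (Sum.inl 0) = 1) :
    ∃ x y c : F, ∃ A : Matrix (Fin 2) (Fin 2) F, A.det = 1 ∧ g = uMat x y c * bMat A := by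
  obtain ⟨P, Q, R, S, rfl⟩ : ∃ P Q R S, g = Matrix.fromBlocks P Q R S :=
    ⟨_, _, _, _, (Matrix.fromBlocks_toBlocks g).symm⟩
  simp only [Matrix.fromBlocks_apply₁₁] at h00
  rw [SymplecticGroup.fromBlocks_mem_iff] at hg
  simp only [uMat, Matrix.fromBlocks_multiply] at hc
  rw [Matrix.fromBlocks_inj] at hc
  obtain ⟨hc1, hc2, hc3, hc4⟩ := hc
  have r00 := congrFun (congrFun hc1 0) 0
  have r01 := congrFun (congrFun hc1 0) 1
  have p10 := congrFun (congrFun hc2 1) 0
  have s00 := congrFun (congrFun hc2 0) 0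
  have s01 := congrFun (congrFun hc2 0) 1
  have r10 := congrFun (congrFun hc4 1) 0
  simp [Matrix.mul_apply, Fin.sum_univ_two, Matrix.vecMul, dotProduct, h00] at r00 r01 p10 s00 s01 r10
  obtain ⟨hg1, hg2, hg3⟩ := hg
  have k1 := congrFun (congrFun hg2 0) 1
  have k2 := congrFun (congrFun hg3 1) 0
  have k3 := congrFun (congrFun hg3 1) 1
  simp [Matrix.mul_apply, Fin.sum_univ_two] at k1 k2 k3
  have s00' : S 0 0 = 1 := by linear_combination -s00
  simp [s00', s01, r01] at k1 k2 k3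
  refine ⟨Q 1 0, S 1 0, Q 0 0, !![P 1 1, Q 1 1; R 1 1, S 1 1], ?_, ?_⟩
  · rw [Matrix.det_fin_two]; simp; linear_combination k3
  · simp only [uMat, bMat, Matrix.fromBlocks_multiply]
    rw [Matrix.fromBlocks_inj]
    refine ⟨?_, ?_, ?_, ?_⟩ <;>
      (ext i j; fin_cases i <;> fin_cases j <;>
        simp [Matrix.mul_apply, Fin.sum_univ_two, h00, r00, r01, p10, r10, s01, s00']) <;>
      first
        | linear_combination k1
        | linear_combination -k1
        | linear_combination k2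
        | linear_combination -k2

end CfsgLib.Order648
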