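import Mathlib

/-!
Facts about `SL₂(3)` and exponent-three powers.
-/

set_option autoImplicit false

namespace CfsgLib.Order648

open Matrix

local notation "S3" => Matrix.SpecialLinearGroup (Fin 2) (ZMod 3)

/-- A power with exponent read modulo three. -/
def p3 {G : Type*} [Group G] (x : G) (k : ZMod 3) : G := x ^ k.val

theorem p3_zero {G : Type*} [Group G] (x : G) : p3 x 0 = 1 := by simp [p3]

theorem p3_one {G : Type*} [Group G] (x : G) : p3 x 1 = x := by simp [p3, ZMod.val_one]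

theorem p3_natCast {G : Type*} [Group G] {x : G} (h : x ^ 3 = 1) (n : ℕ) : p3 x (n : ZMod 3) = x ^ n := by
  rw [p3, ZMod.val_natCast, ← pow_eq_pow_mod n h]

theorem p3_add {G : Type*} [Group G] {x : G} (h : x ^ 3 = 1) (k l : ZMod 3) : p3 x (k + l) = p3 x k * p3 x l := by
  rw [p3, p3, p3, ZMod.val_add, ← pow_add, ← pow_eq_pow_mod _ h]

theorem p3_neg {G : Type*} [Group G] {x : G} (h : x ^ 3 = 1) (k : ZMod 3) : p3 x (-k) = (p3 x k)⁻¹ :=
  eq_inv_of_mul_eq_one_left (by rw [← p3_add h, neg_add_cancel, p3_zero])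

theorem pow_swap {G : Type*} [Group G] {a b w : G} (h : b * a = a * b * w) (ha : Commute a w) (hb : Commute b w)
    (i j : ℕ) : b ^ j * a ^ i = a ^ i * b ^ j * w ^ (i * j) := by
  have h1 : ∀ j : ℕ, b ^ j * a = a * b ^ j * w ^ j := by
    intro j
    induction j with
    | zero => simp
    | succ j ih =>
      rw [pow_succ', mul_assoc, ih, ← mul_assoc, ← mul_assoc, h]
      rw [mul_assoc (a * b) w, (hb.pow_left j).symm.eq, pow_succ' w]
      simp only [mul_assoc]
  induction i with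
  | zero => simp
  | succ i ih =>
    rw [pow_succ, ← mul_assoc, ih, mul_assoc (a ^ i * b ^ j), ← (ha.pow_right (i * j)).eq,
      ← mul_assoc, mul_assoc (a ^ i) (b ^ j) a, h1 j, add_mul, one_mul, pow_add]
    have := (Commute.refl w).pow_pow j (i * j)
    simp only [mul_assoc, this.eq]

theorem p3_swap {G : Type*} [Group G] {a b w : G} (h : b * a = a * b * w) (hca : Commute a w) (hcb : Commute b w)
    (hw : w ^ 3 = 1) (i j : ZMod 3) : p3 b j * p3 a i = p3 a i * p3 b j * p3 w (i * j) := by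
  rw [p3, p3, pow_swap h hca hcb, p3, ZMod.val_mul, ← pow_eq_pow_mod _ hw]

theorem z3_cases : ∀ k : ZMod 3, k = 0 ∨ k = 1 ∨ k = -1 := by decide

theorem z3_double : ∀ k : ZMod 3, 2 * k = 0 → k = 0 := by decide

theorem z3_negdouble : ∀ k : ZMod 3, -2 * k = 0 → k = 0 := by decide

theorem z3_neg : ∀ k : ZMod 3, -k = k → k = 0 := by decide

theorem z3_two_pow : ∀ z : Multiplicative (ZMod 3),
    Multiplicative.ofAdd (2 : ZMod 3) ^ (2 * (Multiplicative.toAdd z).val) = z := by decide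

theorem z3_two_pow_one : ∀ k : ZMod 3, Multiplicative.ofAdd (2 : ZMod 3) ^ k.val = 1 → k = 0 := by decide

theorem p3_inv {G : Type*} [Group G] {x : G} (h : x ^ 3 = 1) (k : ZMod 3) : p3 x⁻¹ k = p3 x (-k) := by
  rw [p3_neg h, p3, p3, inv_pow]

theorem map_p3 {G H : Type*} [Group G] [Group H] (f : G →* H) (x : G) (k : ZMod 3) : f (p3 x k) = p3 (f x) k :=
  map_pow f x _

theorem det_mk {a b c d : ZMod 3} : (!![a, b; c, d] : Matrix (Fin 2) (Fin 2) (ZMod 3)).det = a * d - b * c := by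
  simp [Matrix.det_fin_two]

/-- A square root of `-1`. -/
def imat : S3 := ⟨!![0, 2; 1, 0], by decide⟩

/-- Another square root of `-1`. -/
def jmat : S3 := ⟨!![1, 1; 1, 2], by decide⟩

/-- The upper transvection. -/
def tmat (x : ZMod 3) : S3 := ⟨!![1, x; 0, 1], by rw [det_mk]; ring⟩

/-- The lower transvection. -/
def lmat (x : ZMod 3) : S3 := ⟨!![1, 0; x, 1], by rw [det_mk]; ring⟩

/-- The central involution. -/
def negOne : S3 := ⟨!![2, 0; 0, 2], by decide⟩

theorem imat_sq : imat * imat = negOne := by decide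

theorem negOne_sq : negOne * negOne = 1 := by decide

theorem negOne_ne : negOne ≠ (1 : S3) := by decide

theorem negOne_comm (A : S3) : A * negOne = negOne * A := by
  apply Subtype.ext
  rw [Matrix.SpecialLinearGroup.coe_mul, Matrix.SpecialLinearGroup.coe_mul]
  ext i j
  fin_cases i <;> fin_cases j <;> simp [negOne, Matrix.mul_apply, Fin.sum_univ_two] <;> ring

theorem commutator_small : ∀ a b c d : ZMod 3, a * d - b * c = 1 →
    (!![a, b; c, d] : Matrix (Fin 2) (Fin 2) (ZMod 3)) ≠ 1 → !![a, b; c, d] ≠ !![2, 0; 0, 2] →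
    (let K := !![a, b; c, d] * !![0, 2; 1, 0] * !![d, -b; -c, a] * !![0, 1; 2, 0]
     K = !![2, 0; 0, 2] ∨ K * K = !![2, 0; 0, 2]) ∨
    (let K := !![a, b; c, d] * !![1, 1; 1, 2] * !![d, -b; -c, a] * !![2, 2; 2, 1]
     K = !![2, 0; 0, 2] ∨ K * K = !![2, 0; 0, 2]) := by decide

theorem sl_eta (A : S3) : (A : Matrix (Fin 2) (Fin 2) (ZMod 3)) = !![A.1 0 0, A.1 0 1; A.1 1 0, A.1 1 1] := by
  ext i j; fin_cases i <;> fin_cases j <;> rfl

theorem negOne_mem_normal (K : Subgroup S3) [K.Normal] {A : S3} (hA : A ∈ K) (h1 : A ≠ 1) : negOne ∈ K := by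
  by_cases hn : A = negOne
  · exact hn ▸ hA
  have hdet : A.1 0 0 * A.1 1 1 - A.1 0 1 * A.1 1 0 = 1 := by rw [← det_mk, ← sl_eta, A.2]
  have key := commutator_small _ _ _ _ hdet
    (fun h => h1 (Subtype.ext ((sl_eta A).trans h)))
    (fun h => hn (Subtype.ext ((sl_eta A).trans h)))
  have hinv : ((A⁻¹ : S3) : Matrix (Fin 2) (Fin 2) (ZMod 3)) = !![A.1 1 1, -A.1 0 1; -A.1 1 0, A.1 0 0] := by
    rw [Matrix.SpecialLinearGroup.coe_inv, Matrix.adjugate_fin_two]
  have hmem : ∀ B : S3, A * B * A⁻¹ * B⁻¹ ∈ K := fun B => by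
    rw [mul_assoc, mul_assoc, ← mul_assoc B]
    exact K.mul_mem hA (‹K.Normal›.conj_mem _ (K.inv_mem hA) B)
  have hIi : ((imat⁻¹ : S3) : Matrix (Fin 2) (Fin 2) (ZMod 3)) = !![0, 1; 2, 0] := by decide
  have hJi : ((jmat⁻¹ : S3) : Matrix (Fin 2) (Fin 2) (ZMod 3)) = !![2, 2; 2, 1] := by decide
  have fin : ∀ B : S3, ((A * B * A⁻¹ * B⁻¹ : S3) : Matrix (Fin 2) (Fin 2) (ZMod 3)) = !![2, 0; 0, 2] ∨
      ((A * B * A⁻¹ * B⁻¹ : S3) : Matrix (Fin 2) (Fin 2) (ZMod 3)) *
        ((A * B * A⁻¹ * B⁻¹ : S3) : Matrix (Fin 2) (Fin 2) (ZMod 3)) = !![2, 0; 0, 2] → negOne ∈ K := by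
    intro B h
    rcases h with h | h
    · rw [show negOne = A * B * A⁻¹ * B⁻¹ from Subtype.ext h.symm]; exact hmem B
    · rw [show negOne = (A * B * A⁻¹ * B⁻¹) * (A * B * A⁻¹ * B⁻¹) from
        Subtype.ext (by rw [Matrix.SpecialLinearGroup.coe_mul]; exact h.symm)]
      exact K.mul_mem (hmem B) (hmem B)
  rcases key with h | h
  · refine fin imat ?_
    simp only [Matrix.SpecialLinearGroup.coe_mul, hinv, hIi]
    rw [show ((imat : S3) : Matrix (Fin 2) (Fin 2) (ZMod 3)) = !![0, 2; 1, 0] from rfl, sl_eta A]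
    simpa using h
  · refine fin jmat ?_
    simp only [Matrix.SpecialLinearGroup.coe_mul, hinv, hJi]
    rw [show ((jmat : S3) : Matrix (Fin 2) (Fin 2) (ZMod 3)) = !![1, 1; 1, 2] from rfl, sl_eta A]
    simpa using h

theorem decomp_low : ∀ a b c d : ZMod 3, a * d - b * c = 1 → c ≠ 0 →
    (!![a, b; c, d] : Matrix (Fin 2) (Fin 2) (ZMod 3)) =
      !![1, (a - 1) * c; 0, 1] * !![1, 0; c, 1] * !![1, (d - 1) * c; 0, 1] := by decide

/-- A homomorphism from `SL₂(3)` to a group of exponent two is trivial. -/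
theorem hom_trivial {H : Type*} [Group H] (f : S3 →* H) (h2 : ∀ h : H, h * h = 1) (A : S3) : f A = 1 := by
  have ht : ∀ x, f (tmat x) = 1 := fun x => by
    have : tmat x = tmat (2 * x) * tmat (2 * x) := by
      revert x; decide
    rw [this, map_mul, h2]
  have hl : ∀ x, f (lmat x) = 1 := fun x => by
    have : lmat x = lmat (2 * x) * lmat (2 * x) := by
      revert x; decide
    rw [this, map_mul, h2]
  have low : ∀ B : S3, B.1 1 0 ≠ 0 → f B = 1 := by
    intro B hB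
    have hdet : B.1 0 0 * B.1 1 1 - B.1 0 1 * B.1 1 0 = 1 := by rw [← det_mk, ← sl_eta, B.2]
    have : B = tmat ((B.1 0 0 - 1) * B.1 1 0) * lmat (B.1 1 0) * tmat ((B.1 1 1 - 1) * B.1 1 0) := by
      apply Subtype.ext
      rw [Matrix.SpecialLinearGroup.coe_mul, Matrix.SpecialLinearGroup.coe_mul]
      exact (sl_eta B).trans (decomp_low _ _ _ _ hdet hB)
    rw [this, map_mul, map_mul, ht, hl, ht, one_mul, one_mul]
  by_cases hA : A.1 1 0 = 0
  · have h : (lmat 1 * A).1 1 0 ≠ 0 := by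
      rw [Matrix.SpecialLinearGroup.coe_mul, Matrix.mul_apply, Fin.sum_univ_two]
      simp only [lmat, hA, Matrix.of_apply, Matrix.cons_val', Matrix.cons_val_zero, Matrix.cons_val_one,
        Matrix.empty_val', Matrix.cons_val_fin_one, one_mul, mul_zero, add_zero]
      intro h0
      have hdet : A.1 0 0 * A.1 1 1 - A.1 0 1 * A.1 1 0 = 1 := by rw [← det_mk, ← sl_eta, A.2]
      rw [h0, hA, zero_mul, mul_zero, sub_zero] at hdet
      exact zero_ne_one hdet
    have := low _ h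
    rwa [map_mul, hl, one_mul] at this
  · exact low A hA

theorem line_det : ∀ v₁ v₂ x y : ZMod 3, (x ≠ 0 ∨ y ≠ 0) → v₁ * y - v₂ * x = 0 →
    ∃ t, v₁ = t * x ∧ v₂ = t * y := by decide

end CfsgLib.Order648
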