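import Mathlib
import Cfsg.Prelude.Def_Solvable
import Cfsg.Prelude.Def_Transfer
import Cfsg.Agent.Order648.Small
import Cfsg.Agent.Order648.Model

/-!
Structure of a group of shape `3^{1+2}.SL₂(3)` with trivial `2`-core and a large elementary abelian subgroup.
-/

set_option autoImplicit false

namespace CfsgLib.Order648

local notation "S3" => Matrix.SpecialLinearGroup (Fin 2) (ZMod 3)

/-- The hypotheses, unbundled. -/
structure Shape (X : Type*) [Group X] where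
  R : Subgroup X
  π : X →* S3
  surj : Function.Surjective π
  ker : ∀ g, π g = 1 ↔ g ∈ R
  card : Nat.card R = 27
  exp : ∀ r ∈ R, r ^ 3 = 1
  nonab : ∃ a ∈ R, ∃ b ∈ R, a * b ≠ b * a
  brack : ∀ a ∈ R, ∀ b ∈ R, ∀ r ∈ R, Commute (a * b * a⁻¹ * b⁻¹) r
  zcard : Nat.card {z : X // z ∈ R ∧ ∀ r ∈ R, Commute z r} = 3
  noTwo : ∀ K : Subgroup X, K.Normal → IsPGroup 2 K → K = ⊥
  bigE : ∃ E : Subgroup X, IsMulCommutative E ∧ (∀ a ∈ E, a ^ 3 = 1) ∧ Nat.card E = 27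

namespace Shape

variable {X : Type*} [Group X] [Finite X] (Sh : Shape X)

theorem conj_mem (g : X) {r : X} (hr : r ∈ Sh.R) : g * r * g⁻¹ ∈ Sh.R := by
  rw [← Sh.ker, map_mul, map_mul, (Sh.ker r).2 hr, mul_one, map_inv, mul_inv_cancel]

theorem exists_root : ∃ i : X, i ^ 4 = 1 ∧ Sh.π i = imat := by
  obtain ⟨g, hg⟩ := Sh.surj imat
  have h4 : imat ^ 4 = 1 := by decide
  refine ⟨g ^ 9, ?_, by rw [map_pow, hg]; decide⟩
  have : g ^ 4 ∈ Sh.R := (Sh.ker _).1 (by rw [map_pow, hg, h4])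
  calc (g ^ 9) ^ 4 = ((g ^ 4) ^ 3) ^ 3 := by rw [← pow_mul, ← pow_mul, ← pow_mul]
    _ = 1 := by rw [Sh.exp _ this, one_pow]

/-- The chosen element of order four. -/
noncomputable def ii : X := Sh.exists_root.choose

theorem ii_pow : Sh.ii ^ 4 = 1 := Sh.exists_root.choose_spec.1

theorem pi_ii : Sh.π Sh.ii = imat := Sh.exists_root.choose_spec.2

/-- The chosen involution. -/
noncomputable def cc : X := Sh.ii * Sh.ii

theorem pi_cc : Sh.π Sh.cc = negOne := by rw [cc, map_mul, Sh.pi_ii, imat_sq]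

theorem cc_sq : Sh.cc * Sh.cc = 1 := by
  have := Sh.ii_pow
  rw [show 4 = 2 + 2 from rfl, pow_add, pow_two] at this
  exact this

theorem cc_inv : Sh.cc⁻¹ = Sh.cc := inv_eq_of_mul_eq_one_right Sh.cc_sq

theorem ii_comm : Commute Sh.ii Sh.cc := (Commute.refl Sh.ii).mul_right (Commute.refl Sh.ii)

/-- The part of `g` inverted by the involution. -/
noncomputable def part (g : X) : X := (g * Sh.cc * g⁻¹ * Sh.cc) ^ 2

theorem part_spec (g : X) :
    Sh.part g ∈ Sh.R ∧ Sh.cc * Sh.part g * Sh.cc = (Sh.part g)⁻¹ ∧ Commute Sh.cc ((Sh.part g)⁻¹ * g) := by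
  set c := Sh.cc with hc
  set v := g * c * g⁻¹ * c with hv
  have hvR : v ∈ Sh.R := (Sh.ker _).1 (by
    rw [hv, map_mul, map_mul, map_mul, map_inv, hc, Sh.pi_cc, negOne_comm (Sh.π g), mul_inv_cancel_right, negOne_sq])
  have h3 : v ^ 3 = 1 := Sh.exp _ hvR
  have hinv : c * v * c = v⁻¹ := by
    refine eq_inv_of_mul_eq_one_left ?_
    calc c * v * c * v = c * g * c * g⁻¹ * (c * c) * g * c * g⁻¹ * c := by rw [hv]; group
      _ = c * g * c * g⁻¹ * g * c * g⁻¹ * c := by rw [hc, Sh.cc_sq, mul_one]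
      _ = c * g * (c * c) * g⁻¹ * c := by group
      _ = 1 := by rw [hc, Sh.cc_sq, mul_one, mul_inv_cancel_right, Sh.cc_sq]
  have hp : c * v ^ 2 * c = (v ^ 2)⁻¹ := by
    rw [← inv_pow, ← hinv, pow_two, pow_two]
    calc c * (v * v) * c = c * v * 1 * v * c := by group
      _ = c * v * (c * c) * v * c := by rw [hc, Sh.cc_sq]
      _ = c * v * c * (c * v * c) := by group
  refine ⟨Sh.R.pow_mem hvR 2, hp, ?_⟩
  have h1 : v ^ 2 * c * (v ^ 2)⁻¹ = g * c * g⁻¹ := by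
    rw [← hp]
    calc v ^ 2 * c * (c * v ^ 2 * c) = v ^ 2 * (c * c) * v ^ 2 * c := by group
      _ = v ^ 3 * v * c := by rw [hc, Sh.cc_sq, mul_one]; group
      _ = g * c * g⁻¹ * (c * c) := by rw [h3, one_mul, hv]; group
      _ = g * c * g⁻¹ := by rw [hc, Sh.cc_sq, mul_one]
  show Commute c ((v ^ 2)⁻¹ * g)
  have h2 : c = ((v ^ 2)⁻¹ * g) * c * ((v ^ 2)⁻¹ * g)⁻¹ := by
    calc c = (v ^ 2)⁻¹ * (v ^ 2 * c * (v ^ 2)⁻¹) * v ^ 2 := by group
      _ = _ := by rw [h1]; group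
  exact (mul_inv_eq_iff_eq_mul.1 h2.symm).symm

/-- Membership in the centre of `R`. -/
def Cent (z : X) : Prop := z ∈ Sh.R ∧ ∀ r ∈ Sh.R, Commute z r

theorem cent_one : Sh.Cent 1 := ⟨Sh.R.one_mem, fun r _ => Commute.one_left r⟩

theorem exists_cent_gen : ∃ z : X, z ≠ 1 ∧ Sh.Cent z ∧ ∀ y, Sh.Cent y → y = 1 ∨ y = z ∨ y = z⁻¹ := by
  have h3 : Nat.card {z : X // Sh.Cent z} = 3 := Sh.zcard
  let Z : Subgroup X :=
    { carrier := {z | Sh.Cent z}
      one_mem' := Sh.cent_one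
      mul_mem' := fun ha hb => ⟨Sh.R.mul_mem ha.1 hb.1, fun r hr => (ha.2 r hr).mul_left (hb.2 r hr)⟩
      inv_mem' := fun ha => ⟨Sh.R.inv_mem ha.1, fun r hr => (ha.2 r hr).inv_left⟩ }
  have hZ : Nat.card Z = 3 := h3
  haveI : Fact (Nat.Prime 3) := ⟨Nat.prime_three⟩
  obtain ⟨⟨z, hz⟩, ho⟩ := exists_prime_orderOf_dvd_card' (G := Z) 3 (by rw [hZ])
  have hz1 : z ≠ 1 := by
    intro h
    rw [show (⟨z, hz⟩ : Z) = 1 from Subtype.ext h, orderOf_one] at ho
    omega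
  refine ⟨z, hz1, hz, fun y hy => ?_⟩
  have hy' : (⟨y, hy⟩ : Z) ∈ Subgroup.zpowers (⟨z, hz⟩ : Z) := mem_zpowers_of_prime_card hZ
    (fun h => hz1 (congrArg Subtype.val h))
  obtain ⟨k, hk⟩ := (mem_powers_iff_mem_zpowers.2 hy')
  have hk' : z ^ k = y := congrArg Subtype.val hk
  have h3' := Sh.exp z hz.1
  rw [pow_eq_pow_mod k h3'] at hk'
  rcases (by omega : k % 3 = 0 ∨ k % 3 = 1 ∨ k % 3 = 2) with h | h | h <;> rw [h] at hk'
  · exact Or.inl (by rw [← hk', pow_zero])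
  · exact Or.inr (Or.inl (by rw [← hk', pow_one]))
  · exact Or.inr (Or.inr (by rw [← hk']; exact eq_inv_of_mul_eq_one_left (by rw [← pow_succ, h3'])))

theorem cc_cent {z : X} (hz : Sh.Cent z) : Commute Sh.cc z := by
  obtain ⟨w, hw1, hw, hall⟩ := Sh.exists_cent_gen
  have hi : ∀ y, Sh.Cent y → Sh.Cent (Sh.ii * y * Sh.ii⁻¹) := fun y hy => by
    refine ⟨Sh.conj_mem _ hy.1, fun r hr => ?_⟩
    have h := hy.2 (Sh.ii⁻¹ * r * Sh.ii) (by simpa using Sh.conj_mem Sh.ii⁻¹ hr)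
    have := h.map (MulAut.conj Sh.ii).toMonoidHom
    simpa [MulAut.conj_apply, mul_assoc] using this
  have key : Commute Sh.cc w := by
    have h0 : Sh.cc * w * Sh.cc⁻¹ = Sh.ii * (Sh.ii * w * Sh.ii⁻¹) * Sh.ii⁻¹ := by rw [cc]; group
    refine mul_inv_eq_iff_eq_mul.1 ?_
    rw [h0]
    rcases hall _ (hi w hw) with h | h | h
    · exact absurd (conj_eq_one_iff.1 h) hw1
    · rw [h, h]
    · rw [h]
      calc Sh.ii * w⁻¹ * Sh.ii⁻¹ = (Sh.ii * w * Sh.ii⁻¹)⁻¹ := by group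
        _ = w := by rw [h, inv_inv]
  rcases hall z hz with h | h | h <;> rw [h]
  · exact Commute.one_right _
  · exact key
  · exact key.inv_right

theorem cc_not_central : ¬ ∀ r ∈ Sh.R, Commute Sh.cc r := by
  intro h
  have hall : ∀ g : X, Commute Sh.cc g := fun g => by
    have h1 := (Sh.part_spec g).2.2
    have := (h _ (Sh.part_spec g).1).mul_right h1
    rwa [mul_inv_cancel_left] at this
  have hn : (Subgroup.zpowers Sh.cc).Normal := by
    refine ⟨fun x hx g => ?_⟩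
    obtain ⟨k, rfl⟩ := Subgroup.mem_zpowers_iff.1 hx
    rw [((hall g).zpow_left k).symm.eq, mul_inv_cancel_right]
    exact Subgroup.zpow_mem_zpowers _ k
  have hp : IsPGroup 2 (Subgroup.zpowers Sh.cc) := by
    rintro ⟨x, hx⟩
    obtain ⟨k, rfl⟩ := Subgroup.mem_zpowers_iff.1 hx
    refine ⟨1, Subtype.ext ?_⟩
    show (Sh.cc ^ k) ^ (2 ^ 1 : ℕ) = 1
    rw [← zpow_natCast, ← zpow_mul, mul_comm, zpow_mul]
    simp [zpow_natCast, pow_two, Sh.cc_sq]
  have := Sh.noTwo _ hn hp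
  rw [Subgroup.zpowers_eq_bot] at this
  have h' := Sh.pi_cc
  rw [this, map_one] at h'
  exact negOne_ne h'.symm

theorem self_inv {x : X} (hx : x ∈ Sh.R) (h : x = x⁻¹) : x = 1 := by
  have h3 := Sh.exp x hx
  rw [pow_succ, pow_two] at h3
  nth_rewrite 1 [h] at h3
  rwa [inv_mul_cancel, one_mul] at h3

theorem fixed_cent {r : X} (hr : r ∈ Sh.R) (hcr : Commute Sh.cc r) : Sh.Cent r := by
  classical
  refine ⟨hr, ?_⟩
  by_contra hnc
  obtain ⟨x, hx, hxc⟩ : ∃ x ∈ Sh.R, ¬ Commute Sh.cc x := by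
    have := Sh.cc_not_central
    push_neg at this
    exact this
  set u := Sh.part x with hu
  obtain ⟨huR, huinv, hux⟩ := Sh.part_spec x
  let D : Subgroup X := Sh.R ⊓ Subgroup.centralizer {Sh.cc}
  have hD : ∀ y, y ∈ D ↔ y ∈ Sh.R ∧ Commute Sh.cc y := fun y => by
    rw [Subgroup.mem_inf, Subgroup.mem_centralizer_singleton_iff]
    exact and_congr_right fun _ => ⟨fun h => h.symm, fun h => h.symm⟩
  obtain ⟨z, hz1, hz, hall⟩ := Sh.exists_cent_gen
  have hdvd : Nat.card D ∣ 27 := Sh.card ▸ Subgroup.card_dvd_of_le (inf_le_left : D ≤ Sh.R)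
  have hgt : 3 < Nat.card D := by
    haveI : Fintype X := Fintype.ofFinite X
    have hzinv : z⁻¹ ≠ z := fun h => hz1 (Sh.self_inv hz.1 h.symm)
    have hne : ∀ y, Sh.Cent y → r ≠ y := fun y hy h => hnc (h ▸ hy.2)
    have : ({1, z, z⁻¹, r} : Finset X).card = 4 := by
      rw [Finset.card_insert_of_notMem, Finset.card_insert_of_notMem, Finset.card_insert_of_notMem,
        Finset.card_singleton] <;> simp only [Finset.mem_insert, Finset.mem_singleton, not_or]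
      · exact (hne z⁻¹ ⟨Sh.R.inv_mem hz.1, fun q hq => (hz.2 q hq).inv_left⟩).symm
      · exact ⟨hzinv.symm, (hne z hz).symm⟩
      · exact ⟨hz1.symm, fun h => hz1 (inv_eq_one.1 h.symm), (hne 1 Sh.cent_one).symm⟩
    rw [Nat.card_eq_fintype_card, ← Finset.card_univ]
    refine lt_of_lt_of_le (by omega : 3 < 4) ?_
    rw [← this]
    refine Finset.card_le_card_of_surjOn (fun y : D => (y : X)) ?_
    intro y hy
    simp only [Finset.coe_insert, Finset.coe_singleton, Set.mem_insert_iff, Set.mem_singleton_iff] at hy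
    have : y ∈ D := by
      rw [hD]
      rcases hy with rfl | rfl | rfl | rfl
      · exact ⟨Sh.R.one_mem, Commute.one_right _⟩
      · exact ⟨hz.1, Sh.cc_cent hz⟩
      · exact ⟨Sh.R.inv_mem hz.1, (Sh.cc_cent hz).inv_right⟩
      · exact ⟨hr, hcr⟩
    exact ⟨⟨y, this⟩, Finset.mem_coe.2 (Finset.mem_univ _), rfl⟩
  have huD : u ∉ D := fun h => by
    refine hxc ?_
    have := ((hD u).1 h).2.mul_right hux
    rwa [mul_inv_cancel_left] at this
  have hD9 : Nat.card D = 9 := by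
    have hle : D < Sh.R := lt_of_le_of_ne inf_le_left (fun h => huD (h ▸ huR))
    have hlt : Nat.card D < 27 := by
      rw [← Sh.card]
      exact Set.ncard_lt_ncard (SetLike.coe_ssubset_coe.2 hle) (Set.toFinite _)
    have := Nat.divisors_prime_pow (Nat.prime_three) 3
    obtain ⟨k, hk, hk'⟩ := (Nat.dvd_prime_pow Nat.prime_three (m := 3)).1 (by simpa using hdvd)
    interval_cases k <;> omega
  have hu3 := Sh.exp u huR
  let f : ZMod 3 × D → Sh.R := fun q => ⟨p3 u q.1 * q.2, Sh.R.mul_mem (Sh.R.pow_mem huR _) ((hD _).1 q.2.2).1⟩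
  have hinj : Function.Injective f := by
    rintro ⟨k, d⟩ ⟨k', d'⟩ h
    have h' : p3 u k * d = p3 u k' * (d' : X) := congrArg Subtype.val h
    have hk : k = k' := by
      by_contra hne
      have hm : p3 u (k - k') ∈ D := by
        have : p3 u (k - k') = (d' : X) * (d : X)⁻¹ := by
          rw [sub_eq_neg_add, p3_add hu3, p3_neg hu3, eq_mul_inv_iff_mul_eq, mul_assoc, h', inv_mul_cancel_left]
        rw [this]; exact D.mul_mem d'.2 (D.inv_mem d.2)
      rcases z3_cases (k - k') with e | e | e <;> rw [e] at hm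
      · exact hne (sub_eq_zero.1 e)
      · rw [p3_one] at hm; exact huD hm
      · rw [p3_neg hu3, p3_one, inv_mem_iff] at hm; exact huD hm
    subst hk
    exact Prod.ext rfl (Subtype.ext (mul_left_cancel h'))
  have hbij : Function.Bijective f := (Nat.bijective_iff_injective_and_card f).2
    ⟨hinj, by rw [Nat.card_prod, Nat.card_zmod, hD9, Sh.card]⟩
  -- elements inverted by the involution are powers of `u`
  have hI : ∀ y ∈ Sh.R, Sh.cc * y * Sh.cc = y⁻¹ → ∃ k, y = p3 u k := by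
    intro y hy hyinv
    obtain ⟨⟨k, d⟩, hkd⟩ := hbij.2 ⟨y, hy⟩
    have hyd : y = p3 u k * d := (congrArg Subtype.val hkd).symm
    obtain ⟨hdR, hdc⟩ := (hD _).1 d.2
    set P := p3 u k
    have hP : Sh.cc * P * Sh.cc = P⁻¹ := by
      have : Sh.cc * u ^ k.val * Sh.cc⁻¹ = (Sh.cc * u * Sh.cc⁻¹) ^ k.val := conj_pow.symm
      rw [Sh.cc_inv, huinv, inv_pow] at this
      exact this
    have h1 : P⁻¹ * (d : X) = (d : X)⁻¹ * P⁻¹ := by
      rw [hyd] at hyinv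
      rw [← mul_inv_rev, ← hyinv, ← hP]
      calc Sh.cc * P * Sh.cc * (d : X) = Sh.cc * P * ((d : X) * Sh.cc) := by rw [mul_assoc, hdc.eq]
        _ = _ := by group
    have h2 : P * (d : X) * P⁻¹ = (d : X)⁻¹ := by
      have h5 : (d : X) * P⁻¹ * (d : X) = P⁻¹ := by rw [mul_assoc, h1, mul_inv_cancel_left]
      calc P * (d : X) * P⁻¹ = P * ((d : X) * P⁻¹ * (d : X)) * (d : X)⁻¹ := by group
        _ = (d : X)⁻¹ := by rw [h5, mul_inv_cancel, one_mul]
    have hPR : P ∈ Sh.R := Sh.R.pow_mem huR _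
    have h3 : ∀ q ∈ Sh.R, Commute (d : X) q := by
      intro q hq
      have hb := Sh.brack P hPR d hdR q hq
      rw [h2, show ((d : X))⁻¹ * (d : X)⁻¹ = (d : X) from ?_] at hb
      · exact hb
      · calc ((d : X))⁻¹ * (d : X)⁻¹ = (d : X) ^ 3 * ((d : X) ^ 2)⁻¹ := by rw [Sh.exp _ hdR]; group
          _ = d := by group
    have h4 : (d : X) = (d : X)⁻¹ := by
      conv_rhs => rw [← h2]
      rw [(h3 P hPR).symm.eq, mul_inv_cancel_right]
    exact ⟨k, by rw [hyd, Sh.self_inv hdR h4, mul_one]⟩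
  have hiu : Sh.cc * (Sh.ii * u * Sh.ii⁻¹) * Sh.cc = (Sh.ii * u * Sh.ii⁻¹)⁻¹ := by
    calc Sh.cc * (Sh.ii * u * Sh.ii⁻¹) * Sh.cc = Sh.ii * (Sh.cc * u * Sh.cc) * Sh.ii⁻¹ := by
          rw [← mul_assoc, ← mul_assoc, ← Sh.ii_comm.eq]
          simp only [mul_assoc]
          rw [(Sh.ii_comm.inv_left).eq]
      _ = _ := by simp only [hu]; rw [huinv]; group
  obtain ⟨k, hk⟩ := hI _ (Sh.conj_mem _ huR) hiu
  have hfix : Commute Sh.cc u := by
    refine mul_inv_eq_iff_eq_mul.1 ?_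
    have h0 : Sh.cc * u * Sh.cc⁻¹ = Sh.ii * (Sh.ii * u * Sh.ii⁻¹) * Sh.ii⁻¹ := by rw [cc]; group
    rw [h0, hk]
    rcases z3_cases k with e | e | e <;> subst e
    · rw [p3_zero] at hk; exact absurd (by rw [show u = 1 from conj_eq_one_iff.1 hk]; exact D.one_mem) huD
    · rw [p3_one] at hk ⊢; exact hk
    · rw [p3_neg hu3, p3_one] at hk ⊢
      calc Sh.ii * u⁻¹ * Sh.ii⁻¹ = (Sh.ii * u * Sh.ii⁻¹)⁻¹ := by group
        _ = u := by rw [hk, inv_inv]
  exact huD ((hD u).2 ⟨huR, hfix⟩)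

theorem part_cent {g : X} (hg : g ∈ Sh.R) : Sh.Cent ((Sh.part g)⁻¹ * g) :=
  Sh.fixed_cent (Sh.R.mul_mem (Sh.R.inv_mem (Sh.part_spec g).1) hg) (Sh.part_spec g).2.2

theorem exists_pair : ∃ a b : X, a ∈ Sh.R ∧ b ∈ Sh.R ∧ Sh.cc * a * Sh.cc = a⁻¹ ∧ Sh.cc * b * Sh.cc = b⁻¹ ∧
    a * b ≠ b * a := by
  obtain ⟨x, hx, y, hy, hxy⟩ := Sh.nonab
  obtain ⟨ha, ha', -⟩ := Sh.part_spec x
  obtain ⟨hb, hb', -⟩ := Sh.part_spec y
  refine ⟨_, _, ha, hb, ha', hb', fun h => hxy ?_⟩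
  have cx := Sh.part_cent hx
  have cy := Sh.part_cent hy
  have h1 : Commute (Sh.part x * ((Sh.part x)⁻¹ * x)) (Sh.part y * ((Sh.part y)⁻¹ * y)) :=
    Commute.mul_left (Commute.mul_right h (cy.2 _ ha).symm) (cx.2 _ (Sh.R.mul_mem hb cy.1))
  rwa [mul_inv_cancel_left, mul_inv_cancel_left] at h1

end Shape

/-- A shape together with a pair of non-commuting inverted elements. -/
structure Frame (X : Type*) [Group X] [Finite X] extends Shape X where
  a : X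
  b : X
  ha : a ∈ R
  hb : b ∈ R
  hac : toShape.cc * a * toShape.cc = a⁻¹
  hbc : toShape.cc * b * toShape.cc = b⁻¹
  hab : a * b ≠ b * a

namespace Frame

variable {X : Type*} [Group X] [Finite X] (Fr : Frame X)

/-- The central element. -/
def w : X := Fr.b⁻¹ * Fr.a⁻¹ * Fr.b * Fr.a

theorem hswap : Fr.b * Fr.a = Fr.a * Fr.b * Fr.w := by rw [w]; group

theorem w_mem : Fr.w ∈ Fr.R :=
  Fr.R.mul_mem (Fr.R.mul_mem (Fr.R.mul_mem (Fr.R.inv_mem Fr.hb) (Fr.R.inv_mem Fr.ha)) Fr.hb) Fr.ha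

theorem w_cent : Fr.toShape.Cent Fr.w := by
  refine ⟨Fr.w_mem, fun r hr => ?_⟩
  have := Fr.brack _ (Fr.R.inv_mem Fr.hb) _ (Fr.R.inv_mem Fr.ha) r hr
  simpa [w, inv_inv] using this

theorem w_ne : Fr.w ≠ 1 := fun h => Fr.hab (by rw [Fr.hswap, h, mul_one])

/-- Coordinates on `R`. -/
def φ (x y c : ZMod 3) : X := p3 Fr.a x * p3 Fr.b y * p3 Fr.w (c - x * y)

theorem φ_mem (x y c : ZMod 3) : Fr.φ x y c ∈ Fr.R :=
  Fr.R.mul_mem (Fr.R.mul_mem (Fr.R.pow_mem Fr.ha _) (Fr.R.pow_mem Fr.hb _)) (Fr.R.pow_mem Fr.w_mem _)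

theorem φ_zero : Fr.φ 0 0 0 = 1 := by simp [φ, p3_zero]

theorem φ_a : Fr.φ 1 0 0 = Fr.a := by simp [φ, p3_zero, p3_one]

theorem φ_b : Fr.φ 0 1 0 = Fr.b := by simp [φ, p3_zero, p3_one]

theorem φ_w : Fr.φ 0 0 1 = Fr.w := by simp [φ, p3_zero, p3_one]

theorem φ_mul (x y c x' y' c' : ZMod 3) :
    Fr.φ x y c * Fr.φ x' y' c' = Fr.φ (x + x') (y + y') (c + c' + (x * y' - y * x')) := by
  have hw3 := Fr.exp _ Fr.w_mem
  have ha3 := Fr.exp _ Fr.ha
  have hb3 := Fr.exp _ Fr.hb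
  have hwc : ∀ k r, r ∈ Fr.R → Commute (p3 Fr.w k) r := fun k r hr => (Fr.w_cent.2 r hr).pow_left _
  have hA : ∀ k, p3 Fr.a k ∈ Fr.R := fun k => Fr.R.pow_mem Fr.ha _
  have hB : ∀ k, p3 Fr.b k ∈ Fr.R := fun k => Fr.R.pow_mem Fr.hb _
  unfold φ
  calc p3 Fr.a x * p3 Fr.b y * p3 Fr.w (c - x * y) * (p3 Fr.a x' * p3 Fr.b y' * p3 Fr.w (c' - x' * y'))
      = p3 Fr.a x * p3 Fr.b y * (p3 Fr.w (c - x * y) * (p3 Fr.a x' * p3 Fr.b y')) * p3 Fr.w (c' - x' * y') := by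
        group
    _ = p3 Fr.a x * (p3 Fr.b y * p3 Fr.a x') * p3 Fr.b y' * p3 Fr.w (c - x * y) * p3 Fr.w (c' - x' * y') := by
        rw [(hwc _ _ (Fr.R.mul_mem (hA x') (hB y'))).eq]; group
    _ = p3 Fr.a x * p3 Fr.a x' * p3 Fr.b y * (p3 Fr.w (x' * y) * p3 Fr.b y') * p3 Fr.w (c - x * y)
          * p3 Fr.w (c' - x' * y') := by
        rw [p3_swap Fr.hswap (Fr.w_cent.2 _ Fr.ha).symm (Fr.w_cent.2 _ Fr.hb).symm hw3]; group
    _ = p3 Fr.a x * p3 Fr.a x' * (p3 Fr.b y * p3 Fr.b y') * (p3 Fr.w (x' * y) * p3 Fr.w (c - x * y)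
          * p3 Fr.w (c' - x' * y')) := by
        rw [(hwc _ _ (hB y')).eq]; group
    _ = _ := by
        rw [← p3_add ha3, ← p3_add hb3, ← p3_add hw3, ← p3_add hw3]
        congr 2
        have : (2 : ZMod 3) = -1 := by decide
        linear_combination (y * x') * this

theorem φ_inv (x y c : ZMod 3) : (Fr.φ x y c)⁻¹ = Fr.φ (-x) (-y) (-c) := by
  refine (eq_inv_of_mul_eq_one_left ?_).symm
  rw [φ_mul, ← Fr.φ_zero]; congr 1 <;> ring

theorem φ_conj (x y c x' y' c' : ZMod 3) :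
    Fr.φ x y c * Fr.φ x' y' c' * (Fr.φ x y c)⁻¹ = Fr.φ x' y' (c' + 2 * (x * y' - y * x')) := by
  rw [φ_inv, φ_mul, φ_mul]; congr 1 <;> ring

theorem φ_inj {x y c x' y' c' : ZMod 3} (h : Fr.φ x y c = Fr.φ x' y' c') : x = x' ∧ y = y' ∧ c = c' := by
  have hw : ∀ k, Fr.φ 0 0 k = 1 → k = 0 := fun k hk => by
    have e : Fr.φ 0 0 k = p3 Fr.w k := by simp [φ, p3_zero]
    rw [e] at hk
    rcases z3_cases k with e' | e' | e' <;> subst e'
    · rfl
    · rw [p3_one] at hk; exact absurd hk Fr.w_ne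
    · rw [p3_neg (Fr.exp _ Fr.w_mem), p3_one, inv_eq_one] at hk; exact absurd hk Fr.w_ne
  have h1 : Fr.φ (x - x') (y - y') (c - c' + (-(x * y') + y * x')) = 1 := by
    have h2 := congrArg (· * (Fr.φ x' y' c')⁻¹) h
    simp only [mul_inv_cancel, φ_inv, φ_mul] at h2
    rw [← Fr.φ_zero]
    refine (Eq.trans ?_ h2).trans ?_
    · congr 1 <;> ring
    · congr 1 <;> ring
  have hx : ∀ p q r, Fr.φ p q r = 1 → p = 0 ∧ q = 0 := by
    intro p q r hp
    constructor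
    · have := Fr.φ_conj p q r 0 1 0
      rw [hp, inv_one, one_mul, mul_one] at this
      have h3 : Fr.φ 0 0 (2 * p) = 1 := by
        have h4 := congrArg (fun z => (Fr.φ 0 1 0)⁻¹ * z) this
        simp only [inv_mul_cancel] at h4
        rw [φ_inv, φ_mul] at h4
        exact Eq.trans (by congr 1 <;> ring) h4.symm
      have := hw _ h3
      exact z3_double _ this
    · have := Fr.φ_conj p q r 1 0 0
      rw [hp, inv_one, one_mul, mul_one] at this
      have h3 : Fr.φ 0 0 (-2 * q) = 1 := by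
        have h4 := congrArg (fun z => (Fr.φ 1 0 0)⁻¹ * z) this
        simp only [inv_mul_cancel] at h4
        rw [φ_inv, φ_mul] at h4
        exact Eq.trans (by congr 1 <;> ring) h4.symm
      have := hw _ h3
      exact z3_negdouble _ this
  obtain ⟨e1, e2⟩ := hx _ _ _ h1
  rw [sub_eq_zero] at e1 e2
  subst e1 e2
  refine ⟨rfl, rfl, ?_⟩
  rw [sub_self, sub_self] at h1
  have := hw _ h1
  linear_combination this

theorem φ_surj {r : X} (hr : r ∈ Fr.R) : ∃ x y c, r = Fr.φ x y c := by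
  let f : ZMod 3 × ZMod 3 × ZMod 3 → Fr.R := fun q => ⟨Fr.φ q.1 q.2.1 q.2.2, Fr.φ_mem _ _ _⟩
  have hinj : Function.Injective f := by
    rintro ⟨x, y, c⟩ ⟨x', y', c'⟩ h
    obtain ⟨e1, e2, e3⟩ := Fr.φ_inj (congrArg Subtype.val h)
    exact Prod.ext e1 (Prod.ext e2 e3)
  have hb : Function.Bijective f := (Nat.bijective_iff_injective_and_card f).2
    ⟨hinj, by simp [Fr.card]⟩
  obtain ⟨⟨x, y, c⟩, h⟩ := hb.2 ⟨r, hr⟩
  exact ⟨x, y, c, (congrArg Subtype.val h).symm⟩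

theorem cc_φ (x y c : ZMod 3) : Fr.cc * Fr.φ x y c * Fr.cc⁻¹ = Fr.φ (-x) (-y) c := by
  have e : ∀ g : X, Fr.cc * g * Fr.cc⁻¹ = MulAut.conj Fr.cc g := fun g => rfl
  have ha : MulAut.conj Fr.cc Fr.a = Fr.a⁻¹ := by rw [MulAut.conj_apply, Fr.cc_inv, Fr.hac]
  have hb : MulAut.conj Fr.cc Fr.b = Fr.b⁻¹ := by rw [MulAut.conj_apply, Fr.cc_inv, Fr.hbc]
  have hw : MulAut.conj Fr.cc Fr.w = Fr.w := by
    rw [MulAut.conj_apply, (Fr.cc_cent Fr.w_cent).eq, mul_inv_cancel_right]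
  have hp : ∀ v k, MulAut.conj Fr.cc (p3 v k) = p3 (MulAut.conj Fr.cc v) k :=
    fun v k => map_p3 (MulAut.conj Fr.cc).toMonoidHom v k
  rw [e]
  simp only [φ, map_mul]
  rw [hp, hp, hp, ha, hb, hw, p3_inv (Fr.exp _ Fr.ha), p3_inv (Fr.exp _ Fr.hb), neg_mul_neg]

theorem inverted {x y c : ZMod 3} (h : Fr.cc * Fr.φ x y c * Fr.cc⁻¹ = (Fr.φ x y c)⁻¹) : c = 0 := by
  rw [cc_φ, φ_inv] at h
  obtain ⟨-, -, h⟩ := Fr.φ_inj h
  exact z3_neg _ h.symm

/-- The centralizer of the involution. -/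
noncomputable def N : Subgroup X := Subgroup.centralizer {Fr.cc}

theorem mem_N {n : X} : n ∈ Fr.N ↔ Commute Fr.cc n := by
  rw [N, Subgroup.mem_centralizer_singleton_iff]; exact ⟨fun h => h.symm, fun h => h.symm⟩

theorem conj_inverted {n v : X} (hn : n ∈ Fr.N) (hv : v ∈ Fr.R) (h : Fr.cc * v * Fr.cc = v⁻¹) :
    ∃ p q, n * v * n⁻¹ = Fr.φ p q 0 := by
  obtain ⟨p, q, c, hpq⟩ := Fr.φ_surj (Fr.conj_mem n hv)
  have hn' : Commute Fr.cc n := Fr.mem_N.1 hn
  refine ⟨p, q, ?_⟩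
  rw [hpq, Fr.inverted (c := c) (x := p) (y := q) ?_]
  rw [← hpq]
  calc Fr.cc * (n * v * n⁻¹) * Fr.cc⁻¹ = (Fr.cc * n) * v * (Fr.cc * n)⁻¹ := by group
    _ = n * (Fr.cc * v * Fr.cc) * n⁻¹ := by rw [hn'.eq]; nth_rewrite 4 [← Fr.cc_inv]; group
    _ = _ := by rw [h]; group

theorem exists_mat (n : Fr.N) : ∃ p q r s : ZMod 3, (n : X) * Fr.a * (n : X)⁻¹ = Fr.φ p q 0 ∧
    (n : X) * Fr.b * (n : X)⁻¹ = Fr.φ r s 0 := by
  obtain ⟨p, q, h⟩ := Fr.conj_inverted n.2 Fr.ha Fr.hac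
  obtain ⟨r, s, h'⟩ := Fr.conj_inverted n.2 Fr.hb Fr.hbc
  exact ⟨p, q, r, s, h, h'⟩

theorem conj_p3_φ (g : X) {p q d : ZMod 3} {v : X} (h : g * v * g⁻¹ = Fr.φ p q d) (k : ZMod 3) :
    g * p3 v k * g⁻¹ = Fr.φ (k * p) (k * q) (k * d) := by
  have : ∀ m : ℕ, (Fr.φ p q d) ^ m = Fr.φ (m * p) (m * q) (m * d) := by
    intro m
    induction m with
    | zero => simp [Fr.φ_zero]
    | succ m ih => rw [pow_succ, ih, φ_mul]; congr 1 <;> push_cast <;> ring
  rw [p3, ← conj_pow, h, this, ZMod.natCast_zmod_val]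

theorem conj_φ_det {n : X} (hn : n ∈ Fr.N) {p q r s : ZMod 3}
    (h1 : n * Fr.a * n⁻¹ = Fr.φ p q 0) (h2 : n * Fr.b * n⁻¹ = Fr.φ r s 0) :
    n * Fr.w * n⁻¹ = Fr.φ 0 0 (p * s - q * r) := by
  have : n * Fr.w * n⁻¹ = (n * Fr.b * n⁻¹)⁻¹ * (n * Fr.a * n⁻¹)⁻¹ * (n * Fr.b * n⁻¹) * (n * Fr.a * n⁻¹) := by
    rw [w]; group
  rw [this, h1, h2, φ_inv, φ_inv, φ_mul, φ_mul, φ_mul]
  congr 1
  · ring
  · ring
  · have h2 : (3 : ZMod 3) = 0 := by decide
    linear_combination (-(p * s - q * r)) * h2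

/-- Every element fixes `w`. -/
theorem w_fixed (g : X) : g * Fr.w * g⁻¹ = Fr.w := by
  classical
  obtain ⟨z, hz1, hz, hall⟩ := Fr.toShape.exists_cent_gen
  let C : Subgroup X := Subgroup.centralizer {Fr.w}
  -- the centralizer of `w` is normal of index at most two
  have hinv : ∀ g : X, g * Fr.w * g⁻¹ = Fr.w ∨ g * Fr.w * g⁻¹ = Fr.w⁻¹ := by
    intro g
    have hc : Fr.toShape.Cent (g * Fr.w * g⁻¹) := by
      refine ⟨Fr.conj_mem _ Fr.w_mem, fun r hr => ?_⟩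
      have h := Fr.w_cent.2 (g⁻¹ * r * g) (by simpa using Fr.conj_mem g⁻¹ hr)
      have := h.map (MulAut.conj g).toMonoidHom
      simpa [MulAut.conj_apply, mul_assoc] using this
    have h1 : g * Fr.w * g⁻¹ ≠ 1 := fun h => Fr.w_ne (conj_eq_one_iff.1 h)
    rcases hall _ hc with h | h | h
    · exact absurd h h1
    all_goals rcases hall _ Fr.w_cent with h' | h' | h'
    all_goals first
      | exact absurd h' Fr.w_ne
      | (left; rw [h, h']; done)
      | (right; rw [h, h', inv_inv]; done)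
      | (right; rw [h, h']; done)
  let f : X →* Multiplicative (ZMod 2) :=
    { toFun := fun g => Multiplicative.ofAdd (if g * Fr.w * g⁻¹ = Fr.w then 0 else 1)
      map_one' := by simp
      map_mul' := fun g h => by
        have hne : Fr.w⁻¹ ≠ Fr.w := fun e => Fr.w_ne (Fr.toShape.self_inv Fr.w_mem e.symm)
        have e : g * h * Fr.w * (g * h)⁻¹ = g * (h * Fr.w * h⁻¹) * g⁻¹ := by group
        rw [← ofAdd_add]
        congr 1
        rcases hinv g with hg | hg <;> rcases hinv h with hh | hh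
        · rw [e, hh]; simp [hg]
        · have : g * Fr.w⁻¹ * g⁻¹ = Fr.w⁻¹ := by rw [← conj_inv, hg]
          rw [e, hh]; simp [hg, this, hne]
        · rw [e, hh]; simp [hg, hne]
        · have : g * Fr.w⁻¹ * g⁻¹ = Fr.w := by rw [← conj_inv, hg, inv_inv]
          rw [e, hh]; simp [hg, this, hne]
          decide }
  have hR : Fr.π.ker ≤ f.ker := fun r hr => by
    have hr' : r ∈ Fr.R := (Fr.ker r).1 hr
    show f r = 1
    have : r * Fr.w * r⁻¹ = Fr.w := by rw [← (Fr.w_cent.2 r hr').eq, mul_inv_cancel_right]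
    simp [f, this]
  let fb : S3 →* Multiplicative (ZMod 2) := Fr.π.liftOfSurjective Fr.surj ⟨f, hR⟩
  have hfb : fb (Fr.π g) = f g := MonoidHom.liftOfRightInverse_comp_apply _ _ _ _ g
  rw [hom_trivial fb (by decide) (Fr.π g)] at hfb
  by_contra hne
  have : f g = Multiplicative.ofAdd (1 : ZMod 2) := by simp [f, hne]
  rw [this] at hfb
  exact absurd hfb (by decide)

/-- The matrix of an element commuting with the involution. -/
noncomputable def mat (n : Fr.N) : Matrix (Fin 2) (Fin 2) (ZMod 3) :=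
  !![(Fr.exists_mat n).choose, (Fr.exists_mat n).choose_spec.choose_spec.choose;
    (Fr.exists_mat n).choose_spec.choose, (Fr.exists_mat n).choose_spec.choose_spec.choose_spec.choose]

theorem mat_spec (n : Fr.N) :
    (n : X) * Fr.a * (n : X)⁻¹ = Fr.φ (Fr.mat n 0 0) (Fr.mat n 1 0) 0 ∧
    (n : X) * Fr.b * (n : X)⁻¹ = Fr.φ (Fr.mat n 0 1) (Fr.mat n 1 1) 0 :=
  (Fr.exists_mat n).choose_spec.choose_spec.choose_spec.choose_spec

theorem mat_det (n : Fr.N) : (Fr.mat n).det = 1 := by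
  obtain ⟨h1, h2⟩ := Fr.mat_spec n
  have h := Fr.conj_φ_det n.2 h1 h2
  rw [Fr.w_fixed, ← Fr.φ_w] at h
  obtain ⟨-, -, h⟩ := Fr.φ_inj h
  rw [Matrix.det_fin_two, h]; ring

theorem conj_φ (n : Fr.N) (x y c : ZMod 3) : (n : X) * Fr.φ x y c * (n : X)⁻¹ =
    Fr.φ (Fr.mat n 0 0 * x + Fr.mat n 0 1 * y) (Fr.mat n 1 0 * x + Fr.mat n 1 1 * y) c := by
  obtain ⟨h1, h2⟩ := Fr.mat_spec n
  have hd := Fr.mat_det n
  rw [Matrix.det_fin_two] at hd
  have h3 : (n : X) * Fr.w * (n : X)⁻¹ = Fr.φ 0 0 1 := by rw [Fr.w_fixed, Fr.φ_w]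
  have e : (n : X) * Fr.φ x y c * (n : X)⁻¹ = ((n : X) * p3 Fr.a x * (n : X)⁻¹) * ((n : X) * p3 Fr.b y * (n : X)⁻¹)
      * ((n : X) * p3 Fr.w (c - x * y) * (n : X)⁻¹) := by rw [φ]; group
  rw [e, Fr.conj_p3_φ _ h1, Fr.conj_p3_φ _ h2, Fr.conj_p3_φ _ h3, φ_mul, φ_mul]
  congr 1
  · ring
  · ring
  · linear_combination (x * y) * hd

theorem mat_unique (n : Fr.N) {A : Matrix (Fin 2) (Fin 2) (ZMod 3)}
    (h1 : (n : X) * Fr.a * (n : X)⁻¹ = Fr.φ (A 0 0) (A 1 0) 0)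
    (h2 : (n : X) * Fr.b * (n : X)⁻¹ = Fr.φ (A 0 1) (A 1 1) 0) : Fr.mat n = A := by
  obtain ⟨g1, g2⟩ := Fr.mat_spec n
  obtain ⟨a1, a2, -⟩ := Fr.φ_inj (g1.symm.trans h1)
  obtain ⟨b1, b2, -⟩ := Fr.φ_inj (g2.symm.trans h2)
  ext i j; fin_cases i <;> fin_cases j
  exacts [a1, b1, a2, b2]

/-- The action on `R/Z(R)` as a homomorphism. -/
noncomputable def ρ : Fr.N →* S3 where
  toFun n := ⟨Fr.mat n, Fr.mat_det n⟩
  map_one' := Subtype.ext (Fr.mat_unique 1 (by simp [Fr.φ_a]) (by simp [Fr.φ_b]))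
  map_mul' m n := Subtype.ext (Fr.mat_unique (m * n) (A := Fr.mat m * Fr.mat n)
    (by
      rw [Subgroup.coe_mul, mul_inv_rev]
      calc (m : X) * n * Fr.a * ((n : X)⁻¹ * (m : X)⁻¹) = (m : X) * ((n : X) * Fr.a * (n : X)⁻¹) * (m : X)⁻¹ := by group
        _ = _ := by rw [(Fr.mat_spec n).1, conj_φ]; simp [Matrix.mul_apply, Fin.sum_univ_two])
    (by
      rw [Subgroup.coe_mul, mul_inv_rev]
      calc (m : X) * n * Fr.b * ((n : X)⁻¹ * (m : X)⁻¹) = (m : X) * ((n : X) * Fr.b * (n : X)⁻¹) * (m : X)⁻¹ := by group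
        _ = _ := by rw [(Fr.mat_spec n).2, conj_φ]; simp [Matrix.mul_apply, Fin.sum_univ_two]))

/-- An element centralizing `R` lies in `R`. -/
theorem centralizing_mem {g : X} (hg : ∀ r ∈ Fr.R, Commute g r) : g ∈ Fr.R := by
  by_contra hgR
  let C : Subgroup X := Subgroup.centralizer (Fr.R : Set X)
  have hn : C.Normal := ⟨fun x hx k => by
    rw [Subgroup.mem_centralizer_iff] at hx ⊢
    intro r hr
    have h := hx (k⁻¹ * r * k) (by simpa using Fr.conj_mem k⁻¹ hr)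
    calc r * (k * x * k⁻¹) = k * ((k⁻¹ * r * k) * x) * k⁻¹ := by group
      _ = _ := by rw [h]; group⟩
  haveI : (C.map Fr.π).Normal := hn.map _ Fr.surj
  have hgC : g ∈ C := Subgroup.mem_centralizer_iff.2 fun r hr => (hg r hr).symm
  obtain ⟨k, hk, hkπ⟩ := negOne_mem_normal (C.map Fr.π) (Subgroup.mem_map_of_mem _ hgC)
    (fun h => hgR ((Fr.ker g).1 h))
  have hr : k * Fr.cc ∈ Fr.R := (Fr.ker _).1 (by rw [map_mul, hkπ, Fr.pi_cc, negOne_sq])
  obtain ⟨x, y, c, hxy⟩ := Fr.φ_surj hr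
  have h1 : k * Fr.φ 1 0 0 * k⁻¹ = Fr.φ 1 0 0 := by
    rw [← Subgroup.mem_centralizer_iff.1 hk _ (Fr.φ_mem 1 0 0), mul_inv_cancel_right]
  have h2 : k = Fr.φ x y c * Fr.cc := by rw [← hxy, mul_assoc, Fr.cc_sq, mul_one]
  rw [h2, mul_inv_rev] at h1
  have : Fr.φ x y c * (Fr.cc * Fr.φ 1 0 0 * Fr.cc⁻¹) * (Fr.φ x y c)⁻¹ = Fr.φ 1 0 0 := by
    refine Eq.trans ?_ h1; group
  rw [cc_φ, φ_conj] at this
  exact absurd (Fr.φ_inj this).1 (by decide)

theorem exists_three : ∃ d : X, d ∈ Fr.N ∧ d ^ 3 = 1 ∧ d ∉ Fr.R := by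
  classical
  obtain ⟨E, hEc, hE3, hE27⟩ := Fr.bigE
  have hcomm : ∀ x ∈ E, ∀ y ∈ E, x * y = y * x := fun x hx y hy =>
    congrArg Subtype.val (hEc.is_comm.comm ⟨x, hx⟩ ⟨y, hy⟩)
  obtain ⟨e, he, heR⟩ : ∃ e ∈ E, e ∉ Fr.R := by
    by_contra hcon
    push_neg at hcon
    have : E = Fr.R := Subgroup.eq_of_le_of_card_ge hcon (by rw [Fr.card, hE27])
    exact Fr.hab (hcomm _ (this ▸ Fr.ha) _ (this ▸ Fr.hb))
  obtain ⟨u, hu, huR, hunc⟩ : ∃ u ∈ E, u ∈ Fr.R ∧ ¬ ∀ r ∈ Fr.R, Commute u r := by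
    by_contra hcon
    push_neg at hcon
    let g : E →* S3 := Fr.π.comp E.subtype
    have hker : Nat.card g.ker ≤ 3 := by
      refine le_of_le_of_eq ?_ Fr.zcard
      refine Nat.card_le_card_of_injective (fun x : g.ker => ⟨((x : E) : X), (Fr.ker _).1 x.2, hcon _ (x : E).2 ((Fr.ker _).1 x.2)⟩) ?_
      intro x y h
      exact Subtype.ext (Subtype.ext (by simpa using h))
    have h1 : Nat.card g.range ∣ 24 := by
      have := Subgroup.card_subgroup_dvd_card g.range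
      rwa [show Nat.card S3 = 24 by rw [Nat.card_eq_fintype_card]; decide] at this
    have h2 : Nat.card g.ker * Nat.card g.range = 27 := by
      rw [← hE27, ← Subgroup.index_ker, Subgroup.card_mul_index]
    have h3 : Nat.card g.range ∣ Nat.gcd 24 27 := Nat.dvd_gcd h1 ⟨Nat.card g.ker, by rw [← h2, mul_comm]⟩
    have h4 : Nat.card g.range ≤ 3 := Nat.le_of_dvd (by norm_num) (by simpa using h3)
    have := Nat.mul_le_mul hker h4
    omega
  obtain ⟨x, y, c, hxy⟩ := Fr.φ_surj huR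
  have hne : x ≠ 0 ∨ y ≠ 0 := by
    by_contra h
    push_neg at h
    refine hunc fun r hr => ?_
    obtain ⟨x', y', c', rfl⟩ := Fr.φ_surj hr
    rw [hxy, h.1, h.2, Commute, SemiconjBy, φ_mul, φ_mul]
    congr 1 <;> ring
  obtain ⟨hsR, hsinv, hn⟩ := Fr.toShape.part_spec e
  set s := Fr.toShape.part e
  set n : Fr.N := ⟨s⁻¹ * e, Fr.mem_N.2 hn⟩ with hndef
  obtain ⟨v1, v2, c', hs⟩ := Fr.φ_surj hsR
  have hc' : c' = 0 := Fr.inverted (x := v1) (y := v2) (by rw [← hs, Fr.cc_inv, hsinv])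
  subst hc'
  have heu : e * u * e⁻¹ = u := by rw [hcomm e he u hu, mul_inv_cancel_right]
  have hnu : s * ((n : X) * u * (n : X)⁻¹) * s⁻¹ = u := by
    conv_rhs => rw [← heu]
    show s * ((s⁻¹ * e) * u * (s⁻¹ * e)⁻¹) * s⁻¹ = _
    group
  rw [hxy, conj_φ, hs, φ_conj] at hnu
  obtain ⟨e1, e2, e3⟩ := Fr.φ_inj hnu
  rw [e1, e2] at e3
  have hline : v1 * y - v2 * x = 0 := by
    have : (2 : ZMod 3) * (v1 * y - v2 * x) = 0 := by linear_combination e3
    rcases mul_eq_zero.1 this with h | h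
    · exact absurd h (by decide)
    · exact h
  obtain ⟨t, ht1, ht2⟩ := line_det v1 v2 x y hne hline
  have hcomm' : Commute s (n : X) := by
    have : (n : X) * s * (n : X)⁻¹ = s := by
      rw [hs, conj_φ, ht1, ht2]
      congr 1
      · linear_combination t * e1
      · linear_combination t * e2
    exact (mul_inv_eq_iff_eq_mul.1 this).symm
  refine ⟨n, n.2, ?_, fun h => heR ?_⟩
  · have h3 : (s * (n : X)) ^ 3 = 1 := by
      rw [show s * (n : X) = e from mul_inv_cancel_left s e]; exact hE3 e he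
    rwa [hcomm'.mul_pow, Fr.exp s hsR, one_mul] at h3
  · have := Fr.R.mul_mem hsR h
    rwa [show s * (n : X) = e from mul_inv_cancel_left s e] at this

/-- A complement to `R`, as a homomorphic section of the projection. -/
theorem exists_section : ∃ σ : S3 →* X, (∀ A, σ A ∈ Fr.N) ∧ ∀ A, Fr.π (σ A) = A := by
  classical
  obtain ⟨d, hdN, hd3, hdR⟩ := Fr.exists_three
  let πN : Fr.N →* S3 := Fr.π.comp Fr.N.subtype
  have hsurj : Function.Surjective πN := fun A => by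
    obtain ⟨g, rfl⟩ := Fr.surj A
    obtain ⟨hs, -, hn⟩ := Fr.toShape.part_spec g
    refine ⟨⟨_, Fr.mem_N.2 hn⟩, ?_⟩
    show Fr.π ((Fr.toShape.part g)⁻¹ * g) = Fr.π g
    rw [map_mul, map_inv, (Fr.ker _).2 hs, inv_one, one_mul]
  have hwN : Fr.w ∈ Fr.N := Fr.mem_N.2 (Fr.toShape.cc_cent Fr.w_cent)
  have hkerN : ∀ n : Fr.N, πN n = 1 → ∃ k, (n : X) = p3 Fr.w k := by
    intro n hn
    have hmem : (n : X) ∈ Fr.R := (Fr.ker _).1 hn
    obtain ⟨x, y, c, h⟩ := Fr.φ_surj hmem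
    have h1 : Fr.cc * Fr.φ x y c * Fr.cc⁻¹ = Fr.φ x y c := by
      rw [← h, (Fr.mem_N.1 n.2).eq, mul_inv_cancel_right]
    rw [cc_φ] at h1
    obtain ⟨a1, a2, -⟩ := Fr.φ_inj h1
    have hx : x = 0 := z3_neg _ a1
    have hy : y = 0 := z3_neg _ a2
    exact ⟨c, by rw [h, hx, hy, φ]; simp [p3_zero]⟩
  let W : Fr.N := ⟨Fr.w, hwN⟩
  let Dd : Fr.N := ⟨d, hdN⟩
  have hW3 : W ^ 3 = 1 := Subtype.ext (Fr.exp _ Fr.w_mem)
  have hD3 : Dd ^ 3 = 1 := Subtype.ext hd3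
  have hWc : ∀ n : Fr.N, Commute W n := fun n => by
    have := mul_inv_eq_iff_eq_mul.1 (Fr.w_fixed (n : X))
    exact Subtype.ext this.symm
  let χ : Multiplicative (ZMod 3 × ZMod 3) →* Fr.N :=
    { toFun := fun q => p3 W (Multiplicative.toAdd q).1 * p3 Dd (Multiplicative.toAdd q).2
      map_one' := by simp [p3_zero]
      map_mul' := fun q q' => by
        simp only [toAdd_mul, Prod.fst_add, Prod.snd_add, p3_add hW3, p3_add hD3]
        have hc : Commute (p3 W (Multiplicative.toAdd q').1) (p3 Dd (Multiplicative.toAdd q).2) := (hWc _).pow_left _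
        rw [mul_assoc, mul_assoc, ← mul_assoc (p3 W (Multiplicative.toAdd q').1), hc.eq, mul_assoc] }
  have hχ : Function.Injective χ := by
    rw [injective_iff_map_eq_one]
    intro q hq
    have h1 := congrArg (fun n : Fr.N => Fr.π (n : X)) hq
    simp only [χ, MonoidHom.coe_mk, OneHom.coe_mk, Subgroup.coe_mul, p3, SubmonoidClass.coe_pow, map_mul, map_pow,
      (Fr.ker _).2 Fr.w_mem, W, one_pow, one_mul, OneMemClass.coe_one, map_one] at h1
    have hπd : Fr.π d ≠ 1 := fun h => hdR ((Fr.ker _).1 h)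
    have hq2 : (Multiplicative.toAdd q).2 = 0 := by
      rcases (by generalize (Multiplicative.toAdd q).2 = k; revert k; decide :
          (Multiplicative.toAdd q).2 = 0 ∨ (Multiplicative.toAdd q).2 = 1 ∨ (Multiplicative.toAdd q).2 = 2) with h | h | h
      · exact h
      · rw [h] at h1; exact absurd (by simpa [Dd, ZMod.val_one] using h1) hπd
      · rw [h] at h1
        have h3 : Fr.π d ^ 3 = 1 := by rw [← map_pow, hd3, map_one]
        have h1' : Fr.π d ^ 2 = 1 := h1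
        exact absurd (by rw [pow_succ, h1', one_mul] at h3; exact h3) hπd
    have hq1 : (Multiplicative.toAdd q).1 = 0 := by
      have h2 := congrArg (fun n : Fr.N => (n : X)) hq
      simp only [χ, MonoidHom.coe_mk, OneHom.coe_mk, hq2, p3_zero, mul_one] at h2
      have h4 : p3 Fr.w (Multiplicative.toAdd q).1 = Fr.φ 0 0 0 := by rw [Fr.φ_zero]; exact h2
      have h5 : p3 Fr.w (Multiplicative.toAdd q).1 = Fr.φ 0 0 (Multiplicative.toAdd q).1 := by simp [φ, p3_zero]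
      exact (Fr.φ_inj (h5.symm.trans h4)).2.2
    exact Multiplicative.toAdd.injective (Prod.ext hq1 hq2)
  have hN : Nat.card Fr.N = 72 := by
    have hk : Nat.card πN.ker = 3 := by
      let f : ZMod 3 → πN.ker := fun k => ⟨p3 W k, by
        show Fr.π ((p3 W k : Fr.N) : X) = 1
        simp [p3, W, (Fr.ker _).2 Fr.w_mem]⟩
      have hf : Function.Bijective f := by
        refine ⟨fun k k' h => ?_, fun n => ?_⟩
        · have h' : p3 Fr.w k = p3 Fr.w k' := congrArg (fun x : πN.ker => ((x : Fr.N) : X)) h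
          have e : ∀ j, p3 Fr.w j = Fr.φ 0 0 j := fun j => by simp [φ, p3_zero]
          rw [e, e] at h'
          exact (Fr.φ_inj h').2.2
        · obtain ⟨k, hk⟩ := hkerN _ n.2
          exact ⟨k, Subtype.ext (Subtype.ext hk.symm)⟩
      rw [← Nat.card_eq_of_bijective f hf, Nat.card_zmod]
    have := Subgroup.card_mul_index πN.ker
    rw [Subgroup.index_ker, MonoidHom.range_eq_top.2 hsurj, Subgroup.card_top, hk,
      show Nat.card S3 = 24 by rw [Nat.card_eq_fintype_card]; decide] at this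
    omega
  let eH : Multiplicative (ZMod 3 × ZMod 3) ≃* χ.range := MonoidHom.ofInjective hχ
  let ϕ : χ.range →* Multiplicative (ZMod 3) :=
    (AddMonoidHom.toMultiplicative (AddMonoidHom.fst (ZMod 3) (ZMod 3))).comp eH.symm.toMonoidHom
  have hidx : χ.range.index = 8 := by
    have h := Subgroup.card_mul_index χ.range
    rw [hN, ← Nat.card_congr eH.toEquiv, Nat.card_congr Multiplicative.toAdd, Nat.card_prod, Nat.card_zmod] at h
    omega
  haveI : χ.range.FiniteIndex := ⟨by omega⟩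
  let τ : Fr.N →* Multiplicative (ZMod 3) := MonoidHom.transfer ϕ
  have key : ∀ (k : ℕ) (g₀ : Fr.N), g₀⁻¹ * W ^ k * g₀ ∈ χ.range → g₀⁻¹ * W ^ k * g₀ = W ^ k := fun k g₀ _ => by
    rw [mul_assoc, ((hWc g₀).pow_left k).eq, inv_mul_cancel_left]
  have hτW : τ W = Multiplicative.ofAdd (2 : ZMod 3) := by
    show MonoidHom.transfer ϕ W = _
    rw [MonoidHom.transfer_eq_pow ϕ W key]
    have h8 : W ^ χ.range.index = χ (Multiplicative.ofAdd (2, 0)) := by
      rw [hidx, pow_eq_pow_mod 8 hW3]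
      show W ^ 2 = p3 W 2 * p3 Dd 0
      rw [p3_zero, mul_one]; rfl
    have : (⟨W ^ χ.range.index, MonoidHom.transfer_eq_pow_aux W key⟩ : χ.range) = eH (Multiplicative.ofAdd (2, 0)) :=
      Subtype.ext h8
    rw [this]
    simp [ϕ]
  let πL : τ.ker →* S3 := πN.comp τ.ker.subtype
  have hinj : Function.Injective πL := by
    rw [injective_iff_map_eq_one]
    intro l hl
    obtain ⟨k, hk⟩ := hkerN _ hl
    have hl' : (l : Fr.N) = p3 W k := Subtype.ext (hk.trans (by simp [p3, W]))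
    have h0 : τ (p3 W k) = 1 := hl' ▸ l.2
    rw [p3, map_pow, hτW] at h0
    have hk0 : k = 0 := z3_two_pow_one k h0
    exact Subtype.ext (by rw [hl', hk0, p3_zero]; rfl)
  have hsurjL : Function.Surjective πL := by
    refine ((Nat.bijective_iff_injective_and_card πL).2 ⟨hinj, ?_⟩).2
    have h1 := Subgroup.card_mul_index τ.ker
    have h2 : τ.range = ⊤ := by
      rw [eq_top_iff]
      intro z _
      refine ⟨W ^ (2 * (Multiplicative.toAdd z).val), ?_⟩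
      rw [map_pow, hτW]
      exact z3_two_pow z
    rw [Subgroup.index_ker, h2, Subgroup.card_top, Nat.card_congr Multiplicative.toAdd, Nat.card_zmod, hN] at h1
    rw [show Nat.card S3 = 24 by rw [Nat.card_eq_fintype_card]; decide]
    omega
  let σ0 := (MulEquiv.ofBijective πL ⟨hinj, hsurjL⟩).symm
  refine ⟨Fr.N.subtype.comp (τ.ker.subtype.comp σ0.toMonoidHom), fun A => (σ0 A : Fr.N).2, fun A => ?_⟩
  exact MulEquiv.apply_symm_apply (MulEquiv.ofBijective πL ⟨hinj, hsurjL⟩) A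

end Frame

end CfsgLib.Order648
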