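import Mathlib
import Cfsg.Prelude.Def_Classical
import Cfsg.Agent.Symp.Basic
import Cfsg.Agent.Order648.Structure

/-!
A group of the given shape is the centralizer of a transvection in `PSp₄(3)`.
-/

set_option autoImplicit false

namespace CfsgLib.Order648

local notation "S3" => Matrix.SpecialLinearGroup (Fin 2) (ZMod 3)

variable {X : Type*} [Group X] [Finite X]

theorem Shape.exists_frame (Sh : Shape X) : ∃ Fr : Frame X, Fr.toShape = Sh := by
  obtain ⟨a, b, ha, hb, hac, hbc, hab⟩ := Sh.exists_pair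
  exact ⟨⟨Sh, a, b, ha, hb, hac, hbc, hab⟩, rfl⟩

variable {F : Type*} [Field F] [Fintype F]

local notation "Sp4" => Matrix.symplecticGroup (Fin 2) F

theorem exists_hom (Fr : Frame X) (ι : ZMod 3 →+* F) (hι : Function.Bijective ι) :
    ∃ Ψ : X →* Sp4, Ψ Fr.w = tv F ∧
      (∀ g, (Ψ g : Matrix (Fin 2 ⊕ Fin 2) (Fin 2 ⊕ Fin 2) F) (Sum.inl 0) (Sum.inl 0) = 1) ∧
      Function.Injective Ψ ∧
      ∀ g : Sp4, (g : Matrix (Fin 2 ⊕ Fin 2) (Fin 2 ⊕ Fin 2) F) * uMat (0 : F) 0 1 = uMat (0 : F) 0 1 * g →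
        (g : Matrix (Fin 2 ⊕ Fin 2) (Fin 2 ⊕ Fin 2) F) (Sum.inl 0) (Sum.inl 0) = 1 → g ∈ Ψ.range := by
  classical
  obtain ⟨σ, hσN, hσπ⟩ := Fr.exists_section
  let σN : S3 →* Fr.N := σ.codRestrict Fr.N hσN
  let ρ' : S3 →* S3 := Fr.ρ.comp σN
  have hρinj : Function.Injective ρ' := by
    rw [injective_iff_map_eq_one]
    intro A hA
    have hm : Fr.mat (σN A) = 1 := congrArg Subtype.val hA
    have : σ A ∈ Fr.R := by
      refine Fr.centralizing_mem fun r hr => ?_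
      obtain ⟨x, y, c, rfl⟩ := Fr.φ_surj hr
      have h := Fr.conj_φ (σN A) x y c
      rw [hm] at h
      simp at h
      exact mul_inv_eq_iff_eq_mul.1 h
    rw [← hσπ A]
    exact (Fr.ker _).2 this
  have hρbij : Function.Bijective ρ' := Finite.injective_iff_bijective.1 hρinj
  let sec : X → X := fun g => σ (Fr.π g)
  have hrad : ∀ g, g * (sec g)⁻¹ ∈ Fr.R := fun g => (Fr.ker _).1 (by
    show Fr.π (g * (σ (Fr.π g))⁻¹) = 1
    rw [map_mul, map_inv, hσπ, mul_inv_cancel])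
  choose cx cy cc' hco using fun g => Fr.φ_surj (hrad g)
  let B : S3 → Matrix (Fin 2) (Fin 2) F := fun A => ι.mapMatrix (Fr.mat (σN A))
  have hBdet : ∀ A, (B A).det = 1 := fun A => by
    show (ι.mapMatrix (Fr.mat (σN A))).det = 1
    rw [← RingHom.map_det, Fr.mat_det, map_one]
  have hBmul : ∀ A A', B (A * A') = B A * B A' := fun A A' => by
    show ι.mapMatrix (Fr.mat (σN (A * A'))) = _
    rw [← map_mul]
    exact congrArg _ (congrArg Subtype.val (map_mul ρ' A A'))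
  let Ψ₀ : X → Sp4 := fun g =>
    ⟨uMat (ι (cx g)) (ι (cy g)) (ι (cc' g)), uMat_mem _ _ _⟩ * ⟨bMat (B (Fr.π g)), bMat_mem (hBdet _)⟩
  have hval : ∀ g, (Ψ₀ g : Matrix (Fin 2 ⊕ Fin 2) (Fin 2 ⊕ Fin 2) F) =
      uMat (ι (cx g)) (ι (cy g)) (ι (cc' g)) * bMat (B (Fr.π g)) := fun g => rfl
  have hmul : ∀ g h, Ψ₀ (g * h) = Ψ₀ g * Ψ₀ h := by
    intro g h
    have key : g * h * (sec (g * h))⁻¹ = (g * (sec g)⁻¹) * (sec g * (h * (sec h)⁻¹) * (sec g)⁻¹) := by
      simp only [sec, map_mul, mul_inv_rev]; group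
    rw [hco, hco, hco] at key
    have hs : sec g = ((σN (Fr.π g) : Fr.N) : X) := rfl
    rw [hs, Fr.conj_φ, Fr.φ_mul] at key
    obtain ⟨e1, e2, e3⟩ := Fr.φ_inj key
    apply Subtype.ext
    show _ = (Ψ₀ g : Matrix (Fin 2 ⊕ Fin 2) (Fin 2 ⊕ Fin 2) F) * Ψ₀ h
    rw [hval, hval, hval, map_mul, hBmul, ← bMat_mul, e1, e2, e3,
      Matrix.mul_assoc (uMat (ι (cx g)) _ _) (bMat (B (Fr.π g))), ← Matrix.mul_assoc (bMat (B (Fr.π g))) (uMat _ _ _),
      bMat_mul_uMat (hBdet _), ← Matrix.mul_assoc, ← Matrix.mul_assoc, ← Matrix.mul_assoc, uMat_mul]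
    simp only [B, RingHom.mapMatrix_apply, Matrix.map_apply, map_add, map_sub, map_mul]
  let Ψ : X →* Sp4 := MonoidHom.mk' Ψ₀ hmul
  have hcoord : ∀ g x y c, g * (sec g)⁻¹ = Fr.φ x y c → cx g = x ∧ cy g = y ∧ cc' g = c := fun g x y c h =>
    Fr.φ_inj ((hco g).symm.trans h)
  have hwπ : Fr.π Fr.w = 1 := (Fr.ker _).2 Fr.w_mem
  refine ⟨Ψ, ?_, fun g => uMat_bMat_corner _ _ _ _, ?_, ?_⟩
  · obtain ⟨e1, e2, e3⟩ := hcoord Fr.w 0 0 1 (by simp only [sec, hwπ, map_one, inv_one, mul_one, Fr.φ_w])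
    apply Subtype.ext
    show (Ψ₀ Fr.w : Matrix (Fin 2 ⊕ Fin 2) (Fin 2 ⊕ Fin 2) F) = uMat (0 : F) 0 1
    have hB1 : B 1 = 1 := by
      show ι.mapMatrix (Fr.mat (σN 1)) = 1
      rw [show Fr.mat (σN 1) = 1 from congrArg Subtype.val (map_one ρ'), map_one]
    rw [hval, e1, e2, e3, hwπ, hB1, map_zero, map_one, bMat_one, mul_one]
  · intro g h hgh
    have hv := congrArg Subtype.val hgh
    change (Ψ₀ g : Matrix (Fin 2 ⊕ Fin 2) (Fin 2 ⊕ Fin 2) F) = Ψ₀ h at hv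
    rw [hval, hval] at hv
    obtain ⟨e1, e2, e3, e4⟩ := uMat_bMat_inj hv
    have e4' : Fr.mat (σN (Fr.π g)) = Fr.mat (σN (Fr.π h)) := by
      ext i j
      exact hι.1 (congrFun (congrFun e4 i) j)
    have hA : Fr.π g = Fr.π h := hρinj (Subtype.ext e4')
    have hr : g * (sec g)⁻¹ = h * (sec h)⁻¹ := by rw [hco g, hco h, hι.1 e1, hι.1 e2, hι.1 e3]
    simp only [sec, hA] at hr
    exact mul_right_cancel hr
  · intro g hc h1
    obtain ⟨x, y, c, A, hA, hg⟩ := decompose_one g.2 hc h1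
    obtain ⟨x0, rfl⟩ := hι.2 x
    obtain ⟨y0, rfl⟩ := hι.2 y
    obtain ⟨c0, rfl⟩ := hι.2 c
    let A0 : Matrix (Fin 2) (Fin 2) (ZMod 3) := fun i j => (hι.2 (A i j)).choose
    have hA0 : ι.mapMatrix A0 = A := by
      ext i j
      exact (hι.2 (A i j)).choose_spec
    have hA0det : A0.det = 1 := hι.1 (by rw [RingHom.map_det, hA0, hA, map_one])
    obtain ⟨P, hP⟩ := hρbij.2 ⟨A0, hA0det⟩
    have hP' : Fr.mat (σN P) = A0 := congrArg Subtype.val hP
    refine ⟨Fr.φ x0 y0 c0 * σ P, Subtype.ext ?_⟩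
    have hπ : Fr.π (Fr.φ x0 y0 c0 * σ P) = P := by
      rw [map_mul, (Fr.ker _).2 (Fr.φ_mem _ _ _), one_mul, hσπ]
    obtain ⟨e1, e2, e3⟩ := hcoord (Fr.φ x0 y0 c0 * σ P) x0 y0 c0 (by
      simp only [sec, hπ, mul_inv_cancel_right])
    show (Ψ₀ _ : Matrix (Fin 2 ⊕ Fin 2) (Fin 2 ⊕ Fin 2) F) = g
    rw [hval, e1, e2, e3, hπ, hg]
    show _ * bMat (ι.mapMatrix (Fr.mat (σN P))) = _
    rw [hP', hA0]

theorem cent_cases (Fr : Frame X) {z : X} (hz : Fr.toShape.Cent z) : z = 1 ∨ z = Fr.w ∨ z = Fr.w⁻¹ := by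
  obtain ⟨x, -, -, hall⟩ := Fr.toShape.exists_cent_gen
  have hw := hall Fr.w Fr.w_cent
  rcases hall z hz with h | h | h <;> rcases hw with h' | h' | h'
  all_goals first
    | exact absurd h' Fr.w_ne
    | exact Or.inl h
    | exact Or.inr (Or.inl (h.trans h'.symm))
    | exact Or.inr (Or.inr (by rw [h, h', inv_inv]))
    | exact Or.inr (Or.inr (by rw [h, h']))

theorem main (Fr : Frame X) (hF : Fintype.card F = 3) :
    ∃ (c : Cfsg.PSp 2 F) (S : Sylow 3 (Cfsg.PSp 2 F)), orderOf c = 3 ∧ c ∈ (S : Subgroup (Cfsg.PSp 2 F)) ∧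
      c ∈ Subgroup.centralizer ((S : Subgroup (Cfsg.PSp 2 F)) : Set (Cfsg.PSp 2 F)) ∧
      Nonempty (X ≃* Subgroup.centralizer ({c} : Set (Cfsg.PSp 2 F))) := by
  classical
  haveI : Fact (Nat.Prime 3) := ⟨Nat.prime_three⟩
  haveI : CharP F 3 := charP_of_card_eq_prime hF
  let ι : ZMod 3 →+* F := ZMod.castHom (dvd_refl 3) F
  have hι : Function.Bijective ι :=
    (Fintype.bijective_iff_injective_and_card ι).2 ⟨ι.injective, by rw [hF, ZMod.card]⟩
  obtain ⟨Ψ, hw, hcorner, hinj, hrange⟩ := exists_hom Fr ι hι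
  let mk := QuotientGroup.mk' (Subgroup.center Sp4)
  let Φ : X →* Cfsg.PSp 2 F := mk.comp Ψ
  have hne : (-1 : F) ≠ 1 := Ring.neg_one_ne_one_of_char_ne_two (by rw [ringChar.eq F 3]; decide)
  have hΦ : Function.Injective Φ := by
    rw [injective_iff_map_eq_one]
    intro g hg
    have hmem : Ψ g ∈ Subgroup.center Sp4 := (QuotientGroup.eq_one_iff _).1 hg
    rcases (CfsgLib.Symp.mem_center_iff (by norm_num) _).1 hmem with h | h
    · exact hinj ((Subtype.ext h : Ψ g = 1).trans (map_one Ψ).symm)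
    · have := hcorner g
      rw [h] at this
      exact absurd (by simpa using this) hne
  set c : Cfsg.PSp 2 F := Φ Fr.w with hcdef
  have hw3 : Fr.w ^ 3 = 1 := Fr.exp _ Fr.w_mem
  have hc1 : c ≠ 1 := fun h => Fr.w_ne (hΦ (h.trans (map_one Φ).symm))
  have hord : orderOf c = 3 := orderOf_eq_prime (by rw [hcdef, ← map_pow, hw3, map_one]) hc1
  have hcomm : ∀ g, Φ g * c = c * Φ g := fun g => by
    rw [hcdef, ← map_mul, ← map_mul, mul_inv_eq_iff_eq_mul.1 (Fr.w_fixed g)]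
  have hsurj : ∀ q : Cfsg.PSp 2 F, q * c = c * q → q ∈ Φ.range := by
    intro q hq
    obtain ⟨g, rfl⟩ := QuotientGroup.mk'_surjective _ q
    have hq' : g * tv F * g⁻¹ * (tv F)⁻¹ ∈ Subgroup.center Sp4 := by
      refine (QuotientGroup.eq_one_iff _).1 ?_
      show mk (g * tv F * g⁻¹ * (tv F)⁻¹) = 1
      change mk g * c = c * mk g at hq
      rw [map_mul, map_mul, map_mul, map_inv, map_inv, show mk (tv F) = c by rw [← hw]; rfl, hq]
      group
    have ht3 : (tv F) ^ 3 = 1 := by rw [← hw, ← map_pow, hw3, map_one]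
    rcases (CfsgLib.Symp.mem_center_iff (by norm_num) _).1 hq' with h | h
    · have h' : g * tv F = tv F * g := mul_inv_eq_iff_eq_mul.1 (mul_inv_eq_one.1 (Subtype.ext h : g * tv F * g⁻¹ * (tv F)⁻¹ = 1))
      have hm : (g : Matrix (Fin 2 ⊕ Fin 2) (Fin 2 ⊕ Fin 2) F) * uMat (0 : F) 0 1 = uMat (0 : F) 0 1 * g :=
        congrArg Subtype.val h'
      rcases mul_self_eq_one_iff.1 (corner_sq g.2 hm) with h1 | h1
      · obtain ⟨x, hx⟩ := hrange g hm h1
        exact ⟨x, by show mk (Ψ x) = _; rw [hx]⟩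
      · obtain ⟨x, hx⟩ := hrange ⟨-(g : Matrix (Fin 2 ⊕ Fin 2) (Fin 2 ⊕ Fin 2) F), SymplecticGroup.neg_mem g.2⟩
          (by simp only [Matrix.neg_mul, Matrix.mul_neg, hm]) (by simp [h1])
        refine ⟨x, ?_⟩
        show mk (Ψ x) = mk g
        rw [hx]
        refine QuotientGroup.eq.2 ((CfsgLib.Symp.mem_center_iff (by norm_num) _).2 (Or.inr ?_))
        have e : (⟨-(g : Matrix (Fin 2 ⊕ Fin 2) (Fin 2 ⊕ Fin 2) F), SymplecticGroup.neg_mem g.2⟩ : Sp4) =
            ⟨-1, SymplecticGroup.neg_mem (one_mem _)⟩ * g := Subtype.ext (by simp)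
        rw [e, mul_inv_rev, mul_assoc]
        have e2 : (⟨-1, SymplecticGroup.neg_mem (one_mem _)⟩ : Sp4)⁻¹ = ⟨-1, SymplecticGroup.neg_mem (one_mem _)⟩ :=
          inv_eq_of_mul_eq_one_right (Subtype.ext (by simp))
        rw [e2]
        show ((g⁻¹ : Sp4) : Matrix (Fin 2 ⊕ Fin 2) (Fin 2 ⊕ Fin 2) F) * ((-1) * (g : Matrix (Fin 2 ⊕ Fin 2) (Fin 2 ⊕ Fin 2) F)) = -1
        rw [neg_one_mul, Matrix.mul_neg]
        have := congrArg Subtype.val (inv_mul_cancel g)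
        exact congrArg Neg.neg this
    · exfalso
      set z := g * tv F * g⁻¹ * (tv F)⁻¹ with hz
      have hzc : z ∈ Subgroup.center Sp4 := hq'
      have h3 : (z * tv F) ^ 3 = 1 := by
        rw [hz, inv_mul_cancel_right, conj_pow, ht3, mul_one, mul_inv_cancel]
      rw [(show Commute z (tv F) from (Subgroup.mem_center_iff.1 hzc _).symm).mul_pow, ht3, mul_one] at h3
      have h4 := congrArg (fun u : Sp4 => (u : Matrix (Fin 2 ⊕ Fin 2) (Fin 2 ⊕ Fin 2) F) (Sum.inl 0) (Sum.inl 0)) h3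
      simp [h, pow_succ] at h4
      exact hne h4
  -- a Sylow subgroup centralized by `c`
  let P : Sylow 3 X := default
  let P' : Subgroup (Cfsg.PSp 2 F) := (P : Subgroup X).map Φ
  haveI : Finite (Cfsg.PSp 2 F) := inferInstance
  obtain ⟨S, hS⟩ := (P.isPGroup'.map Φ).exists_le_sylow
  have hRn : Fr.R.Normal := ⟨fun r hr g => Fr.toShape.conj_mem g hr⟩
  have hR3 : IsPGroup 3 Fr.R := IsPGroup.of_card (n := 3) (by rw [Fr.card]; norm_num)
  have hRP : Fr.R ≤ (P : Subgroup X) := hR3.le_sylow_of_normal P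
  have hcS : c ∈ (S : Subgroup (Cfsg.PSp 2 F)) := hS (Subgroup.mem_map_of_mem _ (hRP Fr.w_mem))
  have hback : ∀ y ∈ (S : Subgroup (Cfsg.PSp 2 F)), y * c = c * y → y ∈ P' := by
    intro y hy hyc
    obtain ⟨x, rfl⟩ := hsurj y hyc
    have hle : (P : Subgroup X) ≤ (S : Subgroup (Cfsg.PSp 2 F)).comap Φ :=
      fun u hu => hS (Subgroup.mem_map_of_mem _ hu)
    have hp : IsPGroup 3 ((S : Subgroup (Cfsg.PSp 2 F)).comap Φ) := S.isPGroup'.comap_of_injective Φ hΦ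
    have := P.is_maximal' hp hle
    exact Subgroup.mem_map_of_mem _ (this ▸ hy)
  have hcentral : ∀ y ∈ (S : Subgroup (Cfsg.PSp 2 F)), y * c = c * y := by
    by_contra hcon
    push Not at hcon
    obtain ⟨y0, hy0, hy0c⟩ := hcon
    have hlt : P'.subgroupOf (S : Subgroup (Cfsg.PSp 2 F)) < ⊤ := by
      refine lt_top_iff_ne_top.2 fun h => ?_
      obtain ⟨x, -, hx⟩ := (Subgroup.subgroupOf_eq_top.1 h) hy0
      exact hy0c (hx ▸ hcomm x)
    haveI : Group.IsNilpotent (S : Subgroup (Cfsg.PSp 2 F)) := S.isPGroup'.isNilpotent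
    obtain ⟨⟨y, hyS⟩, hyn, hynot⟩ := SetLike.exists_of_lt (Group.normalizerCondition_of_isNilpotent _ hlt)
    have hnorm : ∀ u ∈ P', y * u * y⁻¹ ∈ P' := fun u hu => by
      have := (Subgroup.mem_normalizer_iff.1 hyn ⟨u, hS hu⟩).1 hu
      simpa [Subgroup.mem_subgroupOf] using this
    obtain ⟨z, hzP, hz⟩ := hnorm c (Subgroup.mem_map_of_mem _ (hRP Fr.w_mem))
    have hzcomm : ∀ u ∈ (P : Subgroup X), Commute z u := by
      intro u hu
      refine hΦ ?_
      rw [map_mul, map_mul, hz]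
      have hyi : y⁻¹ * Φ u * y ∈ P' := by
        have hyn' := Subgroup.inv_mem _ hyn
        have := (Subgroup.mem_normalizer_iff.1 hyn' ⟨Φ u, hS (Subgroup.mem_map_of_mem _ hu)⟩).1
          (Subgroup.mem_map_of_mem _ hu)
        simpa [Subgroup.mem_subgroupOf] using this
      obtain ⟨v, -, hv⟩ := hyi
      have e : Φ u = y * Φ v * y⁻¹ := by rw [hv]; group
      rw [e]
      calc y * c * y⁻¹ * (y * Φ v * y⁻¹) = y * (c * Φ v) * y⁻¹ := by group
        _ = _ := by rw [← hcomm]; group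
    have hzR : z ∈ Fr.R := Fr.centralizing_mem fun r hr => hzcomm r (hRP hr)
    rcases cent_cases Fr (z := z) ⟨hzR, fun r hr => hzcomm r (hRP hr)⟩ with e | e | e <;> rw [e] at hz
    · rw [map_one] at hz
      exact hc1 (conj_eq_one_iff.1 hz.symm)
    · exact hynot (hback y hyS (mul_inv_eq_iff_eq_mul.1 hz.symm))
    · rw [map_inv, ← hcdef] at hz
      -- an element of odd order inverting `c` centralizes it
      obtain ⟨k, hk⟩ := S.isPGroup' ⟨y, hyS⟩
      have hk' : y ^ 3 ^ k = 1 := congrArg Subtype.val hk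
      have hodd : ∀ n, y ^ (2 * n + 1) * c * (y ^ (2 * n + 1))⁻¹ = c⁻¹ := by
        intro n
        induction n with
        | zero => simpa using hz.symm
        | succ n ih =>
          calc y ^ (2 * (n + 1) + 1) * c * (y ^ (2 * (n + 1) + 1))⁻¹
              = y * (y * (y ^ (2 * n + 1) * c * (y ^ (2 * n + 1))⁻¹) * y⁻¹) * y⁻¹ := by
                rw [show 2 * (n + 1) + 1 = (2 * n + 1) + 1 + 1 by ring, pow_succ', pow_succ']
                group
            _ = y * (y * c * y⁻¹)⁻¹ * y⁻¹ := by rw [ih]; group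
            _ = _ := by rw [← hz, inv_inv, ← hz]
      obtain ⟨n, hn⟩ : ∃ n, 3 ^ k = 2 * n + 1 := (Odd.pow (by decide : Odd 3) : Odd (3 ^ k))
      have h5 := hodd n
      rw [← hn, hk', one_mul, inv_one, mul_one] at h5
      have h6 : c ^ 2 = 1 := by rw [pow_two]; nth_rewrite 1 [h5]; rw [inv_mul_cancel]
      have := orderOf_dvd_of_pow_eq_one h6
      rw [hord] at this
      omega
  refine ⟨c, S, hord, hcS, Subgroup.mem_centralizer_iff.2 fun y hy => hcentral y hy, ?_⟩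
  have hr : Φ.range = Subgroup.centralizer ({c} : Set (Cfsg.PSp 2 F)) := by
    ext q
    rw [Subgroup.mem_centralizer_singleton_iff]
    exact ⟨fun ⟨x, hx⟩ => hx ▸ hcomm x, fun h => hsurj q h⟩
  exact ⟨(MonoidHom.ofInjective hΦ).trans (MulEquiv.subgroupCongr hr)⟩

end CfsgLib.Order648
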